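import Cfsg.Agent.H42.PcDefs

/-! Project PC, piece N1: the elements squaring into `T` lie in a normal `2`-subgroup. -/

set_option autoImplicit false

namespace Cfsg.Agent.H66.PcN1

open Subgroup Cfsg.Agent.H42.Pc

universe u

variable {G : Type u} [Group G]

theorem sq_mem {T : Subgroup G} {w : G} (hw : w ∈ T) : w * w ∈ Sq T := subset_closure ⟨w, hw, rfl⟩

theorem sq_normal {T : Subgroup G} (n : T.Normal) : (Sq T).Normal := ⟨fun x hx g => by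
  have : Sq T ≤ (Sq T).comap (MulAut.conj g).toMonoidHom := (closure_le _).2 (by
    rintro _ ⟨w, hw, rfl⟩
    show g * (w * w) * g⁻¹ ∈ Sq T
    have e : g * (w * w) * g⁻¹ = g * w * g⁻¹ * (g * w * g⁻¹) := by group
    rw [e]
    exact sq_mem (n.conj_mem w hw g))
  exact this hx⟩

/-- the elements acting trivially on `T / Sq T` -/
def MM {T : Subgroup G} (n : T.Normal) : Subgroup G where
  carrier := {g | ∀ w ∈ T, w⁻¹ * (g * w * g⁻¹) ∈ Sq T}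
  one_mem' := fun w _ => by simp
  mul_mem' := fun {a b} ha hb w hw => by
    have e : w⁻¹ * (a * b * w * (a * b)⁻¹) =
        w⁻¹ * (a * w * a⁻¹) * (a * (w⁻¹ * (b * w * b⁻¹)) * a⁻¹) := by group
    rw [e]
    exact mul_mem (ha w hw) ((sq_normal n).conj_mem _ (hb w hw) a)
  inv_mem' := fun {a} ha w hw => by
    have e : w⁻¹ * (a⁻¹ * w * a⁻¹⁻¹) =
        ((a⁻¹ * w * a⁻¹⁻¹)⁻¹ * (a * (a⁻¹ * w * a⁻¹⁻¹) * a⁻¹))⁻¹ := by group
    rw [e]
    exact inv_mem (ha _ (n.conj_mem w hw a⁻¹))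

theorem MM_normal {T : Subgroup G} (n : T.Normal) : (MM n).Normal := ⟨fun g hg h w hw => by
  have e : w⁻¹ * (h * g * h⁻¹ * w * (h * g * h⁻¹)⁻¹) =
      h * ((h⁻¹ * w * h⁻¹⁻¹)⁻¹ * (g * (h⁻¹ * w * h⁻¹⁻¹) * g⁻¹)) * h⁻¹ := by group
  rw [e]
  exact (sq_normal n).conj_mem _ (hg _ (n.conj_mem w hw h⁻¹)) h⟩

theorem n1 (a : AStmt.{u}) (bb : BbStmt.{u}) : N1Stmt.{u} := by
  intro G _ _ T c hc
  have n := c.nT
  refine ⟨MM n, MM_normal n, fun g => ?_, fun y hy => ?_⟩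
  · obtain ⟨k, m, hm, e⟩ := Nat.exists_eq_two_pow_mul_odd (orderOf_pos (g : G)).ne'
    have o : Odd (orderOf ((g : G) ^ 2 ^ k)) := hm.of_dvd_nat (orderOf_dvd_of_pow_eq_one (by
      rw [← pow_mul, ← e, pow_orderOf_eq_one]))
    obtain ⟨j, hj⟩ := hc _ (bb G T _ c.pT o (pow_mem g.2 (2 ^ k)))
    exact ⟨k + j, Subtype.ext (by rw [← pow_mul, ← pow_add] at hj; exact hj)⟩
  · rw [← inv_mem_iff]
    intro w hw
    have e1 : y * w * (y * w) = y * y * (y⁻¹ * w * y⁻¹⁻¹ * w) := by group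
    have h1 := a G T c (y * w) (by
      rw [e1]; exact mul_mem hy (mul_mem (n.conj_mem w hw y⁻¹) hw))
    rw [e1] at h1
    have h2 := (mul_mem_cancel_left (a G T c y hy)).1 h1
    have e2 : w⁻¹ * (y⁻¹ * w * y⁻¹⁻¹) = w⁻¹ * w⁻¹ * (w * (y⁻¹ * w * y⁻¹⁻¹ * w) * w⁻¹) := by group
    rw [e2]
    exact mul_mem (sq_mem (inv_mem hw)) ((sq_normal n).conj_mem _ h2 w)

end Cfsg.Agent.H66.PcN1
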