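import Cfsg.Agent.H63.BG1
import Cfsg.Agent.H63.Constt
import Cfsg.Agent.H52.DGrp

/-! Groups which are `p`-by-cyclic. -/

set_option autoImplicit false

namespace Cfsg.Agent.H66.ByCyc

open Cfsg Cfsg.Agent.H63 Cfsg.Agent.H67 Subgroup

variable {G : Type*} [Group G] [Finite G] {p : ℕ} [hp : Fact p.Prime]

theorem of_sup {Q : Subgroup G} (hQ : IsPGroup p Q) {c : G} (hc : c ∈ N[Q]) :
    (∀ S : Sylow p ↥(Q ⊔ zpowers c), (S : Subgroup ↥(Q ⊔ zpowers c)).Normal) ∧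
    (∀ (S : Sylow p ↥(Q ⊔ zpowers c)) [(S : Subgroup ↥(Q ⊔ zpowers c)).Normal],
      IsCyclic (↥(Q ⊔ zpowers c) ⧸ (S : Subgroup ↥(Q ⊔ zpowers c)))) := by
  have hn : Q ⊴ Q ⊔ zpowers c := normalIn_sup_left (zpowers_le.2 hc)
  have hle : ∀ S : Sylow p ↥(Q ⊔ zpowers c), ∀ x : ↥(Q ⊔ zpowers c), (x : G) ∈ Q →
      x ∈ (S : Subgroup ↥(Q ⊔ zpowers c)) := by
    intro S x hx
    obtain ⟨y, hy, e⟩ := le_syl_of_normalIn (syl_map_sylow S) hn hQ hx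
    rwa [← Subtype.ext e]
  have hdec : ∀ x : ↥(Q ⊔ zpowers c), ∃ q ∈ Q, ∃ n : ℤ, (x : G) = q * c ^ n := by
    intro x
    obtain ⟨q, hq, y, ⟨n, rfl⟩, e⟩ := (mem_sup_of_le_normalizer' (zpowers_le.2 hc)).1 x.2
    exact ⟨q, hq, n, e.symm⟩
  have hcH : c ∈ Q ⊔ zpowers c := mem_sup_right (mem_zpowers c)
  refine ⟨fun S => ⟨fun s hs g => ?_⟩, fun S _ => ⟨⟨QuotientGroup.mk ⟨c, hcH⟩, fun y => ?_⟩⟩⟩
  · have h1 : g * s * g⁻¹ * s⁻¹ ∈ (S : Subgroup ↥(Q ⊔ zpowers c)) := by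
      refine hle S _ ?_
      obtain ⟨q, hq, n, e⟩ := hdec g
      obtain ⟨q', hq', m, e'⟩ := hdec s
      change (g : G) * s * (g : G)⁻¹ * (s : G)⁻¹ ∈ Q
      rw [e, e']
      have e2 : q * c ^ n * (q' * c ^ m) * (q * c ^ n)⁻¹ * (q' * c ^ m)⁻¹ =
          q * (c ^ n * q' * (c ^ n)⁻¹) * (c ^ m * q⁻¹ * (c ^ m)⁻¹) * q'⁻¹ := by group
      rw [e2]
      exact Q.mul_mem (Q.mul_mem (Q.mul_mem hq (conj_mem_of_mem_normalizer (zpow_mem hc n) hq'))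
        (conj_mem_of_mem_normalizer (zpow_mem hc m) (Q.inv_mem hq))) (Q.inv_mem hq')
    simpa using Subgroup.mul_mem _ h1 hs
  · obtain ⟨x, rfl⟩ := QuotientGroup.mk_surjective y
    obtain ⟨q, hq, n, e⟩ := hdec x
    refine ⟨n, ?_⟩
    change (QuotientGroup.mk ⟨c, hcH⟩ : _ ⧸ (S : Subgroup ↥(Q ⊔ zpowers c))) ^ n = _
    rw [← QuotientGroup.mk_zpow, QuotientGroup.eq]
    refine hle S _ ?_
    change ((⟨c, hcH⟩ ^ n : ↥(Q ⊔ zpowers c)) : G)⁻¹ * x ∈ Q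
    rw [e, coe_zpow]
    have := conj_mem_of_mem_normalizer' (zpow_mem hc n) hq
    simpa [mul_assoc] using this

theorem decomp {H : Subgroup G} (h1 : ∀ S : Sylow p ↥H, (S : Subgroup ↥H).Normal)
    (h2 : ∀ (S : Sylow p ↥H) [(S : Subgroup ↥H).Normal], IsCyclic (↥H ⧸ (S : Subgroup ↥H))) :
    ∃ (Q : Subgroup G) (d : G), IsPGroup p Q ∧ d ∈ N[Q] ∧ PiElt ({p}ᶜ : Set ℕ) d ∧
      H = Q ⊔ zpowers d := by
  obtain ⟨S⟩ : Nonempty (Sylow p ↥H) := inferInstance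
  have := h1 S
  obtain ⟨g, hg⟩ := (h2 S).exists_generator
  obtain ⟨c, rfl⟩ := QuotientGroup.mk_surjective g
  have hS := syl_map_sylow S
  have hn := map_subtype_normalIn (S : Subgroup ↥H)
  refine ⟨_, constt {p}ᶜ (c : G), syl_isPGroup hS, hn.2 (constt_mem _ c.2), piElt_constt _ _,
    le_antisymm (fun x hx => ?_) (sup_le hn.1 (zpowers_le.2 (constt_mem _ c.2)))⟩
  obtain ⟨n, e⟩ := hg (QuotientGroup.mk ⟨x, hx⟩)
  have e' : (QuotientGroup.mk (c ^ n) : ↥H ⧸ (S : Subgroup ↥H)) = QuotientGroup.mk ⟨x, hx⟩ := by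
    rw [QuotientGroup.mk_zpow]; exact e
  rw [QuotientGroup.eq] at e'
  have hc : (c : G) ∈ (S : Subgroup ↥H).map H.subtype ⊔ zpowers (constt {p}ᶜ (c : G)) := by
    have h3 := mem_of_normal_hall hS hn (constt_mem {p} c.2) (piElt_constt _ _)
    have h4 := mul_mem (mem_sup_left h3 : _ ∈ (S : Subgroup ↥H).map H.subtype ⊔ zpowers (constt {p}ᶜ (c : G)))
      (mem_sup_right (mem_zpowers (constt {p}ᶜ (c : G))))
    rwa [consttC] at h4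
  have h5 : x = (c : G) ^ n * (((c ^ n)⁻¹ * ⟨x, hx⟩ : ↥H) : G) := by simp
  rw [h5]
  exact mul_mem (zpow_mem hc n) (mem_sup_left ⟨_, e', rfl⟩)

theorem coprime_card {Q : Subgroup G} (hQ : IsPGroup p Q) {d : G} (hd : PiElt ({p}ᶜ : Set ℕ) d) :
    (Nat.card Q).Coprime (Nat.card (zpowers d)) :=
  isPi_coprime (isPi_of_isPGroup hp.out hQ) (isPi_zpowers_iff.2 hd)

theorem isCyclic_sup {Q : Subgroup G} (hQ : IsPGroup p Q) (hc : IsCyclic Q) {d : G}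
    (hd : PiElt ({p}ᶜ : Set ℕ) d) (hdQ : d ∈ C[Q]) : IsCyclic ↥(Q ⊔ zpowers d) :=
  isCyclic_sup_of_coprime hc inferInstance (zpowers_le.2 hdQ) (coprime_card hQ hd)

theorem card_sup_eq {Q : Subgroup G} (hQ : IsPGroup p Q) {d : G} (hd : PiElt ({p}ᶜ : Set ℕ) d)
    (hn : d ∈ N[Q]) : Nat.card ↥(Q ⊔ zpowers d) = Nat.card Q * orderOf d := by
  rw [card_sup_of_inf_eq_bot (Or.inr (zpowers_le.2 hn)) (inf_eq_bot_of_coprime' (coprime_card hQ hd)),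
    Nat.card_zpowers]

theorem eq_one_of_mem {Q : Subgroup G} (hQ : IsPGroup p Q) {d : G} (hd : PiElt ({p}ᶜ : Set ℕ) d)
    (hn : d ∈ Q) : d = 1 :=
  (piElt_of_mem (isPi_of_isPGroup hp.out hQ) hn).eq_one hd

omit [Finite G] hp in
theorem le_two_of_comm {H : Subgroup G} {n : ℕ} (e : H ≃* DihedralGroup n) (hn : n ≠ 0)
    (h : IsMulCommutative H) : n ≤ 2 := by
  have h1 : ∀ a b : DihedralGroup n, a * b = b * a := fun a b => by
    obtain ⟨a, rfl⟩ := e.surjective a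
    obtain ⟨b, rfl⟩ := e.surjective b
    rw [← map_mul, ← map_mul, h.is_comm.comm]
  have h2 := h1 (DihedralGroup.r 1) (DihedralGroup.sr 0)
  simp only [DihedralGroup.r_mul_sr, DihedralGroup.sr_mul_r, DihedralGroup.sr.injEq, zero_sub,
    zero_add] at h2
  have h3 : ((2 : ℕ) : ZMod n) = 0 := by
    have : (1 : ZMod n) + 1 = 0 := by nth_rewrite 1 [← h2]; simp
    rw [← this]; norm_num
  exact Nat.le_of_dvd two_pos ((ZMod.natCast_eq_zero_iff _ _).1 h3)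

end Cfsg.Agent.H66.ByCyc
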