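import Cfsg.Agent.H2.FXDefs
import Cfsg.Agent.H28.Transport

/-! Project FX: generation of `SL₂(13)` and the passage to `L₂(13)`. -/

set_option autoImplicit false

namespace Cfsg.Agent.H66.FXGen

open Cfsg.Agent.H2FX Cfsg.Agent.H50.E83 Subgroup
open scoped Matrix MatrixGroups

universe u

def xt (t : ZMod 13) : S13 := ⟨!![1, t; 0, 1], by simp [Matrix.det_fin_two_of]⟩

def yt (t : ZMod 13) : S13 := ⟨!![1, 0; t, 1], by simp [Matrix.det_fin_two_of]⟩

theorem xt_pow : ∀ t : ZMod 13, (xt t).1 = (gu ^ t.val).1 := by decide +kernel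

theorem yt_eq : ∀ t : ZMod 13, (yt t * gs).1 = (gs * xt (-t)).1 := by decide +kernel

theorem inv13 : ∀ c : ZMod 13, c ≠ 0 → ∃ c', c * c' = 1 := by decide +kernel

theorem sq13 : ∀ r : ZMod 13, r ^ 2 = 1 → r = 1 ∨ r = -1 := by decide +kernel

theorem gen : GenStmt := by
  have s : gs ∈ Subgroup.closure {gu, gs} := Subgroup.subset_closure (Or.inr rfl)
  have x0 : gu ∈ Subgroup.closure {gu, gs} := Subgroup.subset_closure (Or.inl rfl)
  have x : ∀ t, xt t ∈ Subgroup.closure {gu, gs} := fun t => by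
    rw [Subtype.ext (xt_pow t)]
    exact pow_mem x0 _
  have y : ∀ t, yt t ∈ Subgroup.closure {gu, gs} := fun t =>
    (mul_mem_cancel_right s).1 (by rw [Subtype.ext (yt_eq t)]; exact mul_mem s (x _))
  have k : ∀ g : S13, g 1 0 ≠ 0 → g ∈ Subgroup.closure {gu, gs} := fun g hg => by
    obtain ⟨c, e⟩ := inv13 _ hg
    have hd := g.det_coe
    rw [Matrix.det_fin_two] at hd
    have : g = xt ((g 0 0 - 1) * c) * yt (g 1 0) * xt ((g 1 1 - 1) * c) := by
      refine Subtype.ext ?_
      change g.1 = !![1, (g 0 0 - 1) * c; 0, 1] * !![1, 0; g 1 0, 1] * !![1, (g 1 1 - 1) * c; 0, 1]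
      rw [Matrix.mul_fin_two, Matrix.mul_fin_two]
      ext i j
      fin_cases i <;> fin_cases j <;> simp
      · linear_combination (1 - g 0 0) * e
      · linear_combination (-(g 0 1) - (g 0 0 - 1) * (g 1 1 - 1) * c) * e - c * hd
      · linear_combination (1 - g 1 1) * e
    rw [this]
    exact mul_mem (mul_mem (x _) (y _)) (x _)
  refine eq_top_iff.2 fun g _ => ?_
  by_cases hg : g 1 0 = 0
  · refine (mul_mem_cancel_right s).1 (k _ fun n => ?_)
    have hd := g.det_coe
    rw [Matrix.det_fin_two] at hd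
    have n' : (g.1 * gs.1 : Matrix _ _ _) 1 0 = 0 := n
    rw [Matrix.mul_apply, Fin.sum_univ_two] at n'
    replace n : g 1 0 * 0 + g 1 1 * 12 = 0 := n'
    have e : (12 : ZMod 13) = -1 := by decide
    rw [e] at n
    exact absurd (show (0 : ZMod 13) = 1 by linear_combination hd + g 0 0 * n + g 0 1 * hg)
      (by decide)
  · exact k g hg

theorem mem_center13 (g : S13) : g ∈ center S13 ↔ g = 1 ∨ g = -1 := by
  constructor
  · intro h
    obtain ⟨r, hr, e⟩ := Matrix.SpecialLinearGroup.mem_center_iff.1 h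
    rw [Fintype.card_fin] at hr
    rcases sq13 r hr with rfl | rfl
    · left; apply Subtype.ext; rw [← e]; simp
    · right; apply Subtype.ext; rw [← e, map_neg, map_one]; rfl
  · rintro (rfl | rfl)
    · exact one_mem _
    · exact mem_center_iff.2 fun g => by simp

theorem emb : EmbStmt.{u} := by
  intro h F _ _ hF φ hφ
  let e : PSL(2, ZMod 13) ≃* PSL(2, F) :=
    H28.pslEquiv (ZMod.ringEquivOfPrime F (by norm_num) hF) (Fin 2)
  obtain ⟨v, hv, hw⟩ := h ((φ.comp e.toMonoidHom).comp (QuotientGroup.mk' (center S13))) fun g => by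
    rw [← mem_center13, ← QuotientGroup.eq_one_iff, ← map_eq_one_iff e e.injective,
      ← map_eq_one_iff φ hφ]
    rfl
  refine ⟨v, hv, fun g => ?_⟩
  obtain ⟨y, rfl⟩ := e.surjective g
  obtain ⟨x, rfl⟩ := QuotientGroup.mk'_surjective (center S13) y
  exact hw x

end Cfsg.Agent.H66.FXGen
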