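import Cfsg.Agent.H98.GbL

/-! Project GB, piece GRM: inner products of the primitive class functions. -/

set_option autoImplicit false

namespace Cfsg.Agent.H66.GbGrm

open Cfsg Module Finset Cfsg.Agent.H19 Cfsg.Agent.H22.Cusp Cfsg.Agent.H98.GB
open scoped ComplexConjugate MatrixGroups

universe u

theorem mul_conj_iff {z w : ℂ} {N : ℕ} (hN : N ≠ 0) (hw : w ^ N = 1) :
    z * conj w = 1 ↔ z = w := by
  have h1 : w * conj w = 1 := by
    rw [Complex.mul_conj', Complex.norm_eq_one_of_pow_eq_one hw hN]; simp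
  refine ⟨fun h => ?_, fun h => h ▸ h1⟩
  calc z = z * (w * conj w) := by rw [h1, mul_one]
    _ = (z * conj w) * w := by ring
    _ = w := by rw [h, one_mul]

theorem grm : GRMStmt.{u} := by
  intro F _ _ _ C a b n hn
  classical
  have hM := C.hM0
  have := C.ch
  have hpp : C.p0.Prime := hM.1
  have : Fact C.p0.Prime := ⟨hpp⟩
  have : NeZero n := ⟨hn.ne'⟩
  let _ := C.alg
  let _ : Algebra (ZMod C.p0) F := ZMod.algebra _ _
  let K := FiniteField.Extension F C.p0 n
  have := Fintype.ofFinite K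
  have hK : finrank F K = n := FiniteField.finrank_extension F C.p0 n
  let j : K →ₐ[F] kk C.M0 := IsAlgClosed.lift
  obtain ⟨N, hN⟩ : ∃ N, N = Fintype.card F ^ n - 1 := ⟨_, rfl⟩
  have hq : 1 < Fintype.card F ^ n := Nat.one_lt_pow (by omega) Fintype.one_lt_card
  have hN0 : N ≠ 0 := by omega
  have hNK : Nat.card Kˣ = N := by
    rw [Nat.card_units, FiniteField.natCard_extension, Nat.card_eq_fintype_card, hN]
  have hpN : ¬ C.p0 ∣ N := by
    intro h
    obtain ⟨r, -, hr⟩ := FiniteField.card F C.p0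
    have h1 : C.p0 ∣ Fintype.card F ^ n := dvd_pow (hr ▸ dvd_pow_self _ r.ne_zero) hn.ne'
    have h2 : C.p0 ∣ Fintype.card F ^ n - N := Nat.dvd_sub h1 h
    rw [show Fintype.card F ^ n - N = 1 by omega] at h2
    exact hpp.one_lt.ne' (Nat.dvd_one.1 h2)
  have hx : ∀ x : Kˣ, j x ^ N = 1 := fun x => by
    rw [← map_pow, ← Units.val_pow_eq_pow_val, ← hNK, pow_card_eq_one', Units.val_one, map_one]
  have ht1 : teich C.p0 C.M0 1 = 1 := by
    have := teich_red hM (z := 1) hpN (one_pow _)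
    rwa [red_one] at this
  let θ₀ : Kˣ →* ℂ :=
    { toFun := fun x => teich C.p0 C.M0 (j x)
      map_one' := by simp [ht1]
      map_mul' := fun x y => by
        rw [Units.val_mul, map_mul, teich_mul hM hpN (hx x) (hx y)] }
  have hθi : Function.Injective θ₀ := by
    intro x y h
    have h1 : red C.M0 (teich C.p0 C.M0 (j x)) = red C.M0 (teich C.p0 C.M0 (j y)) :=
      congrArg (red C.M0) h
    rw [(teich_spec hM hpN (hx x)).2, (teich_spec hM hpN (hx y)).2] at h1
    exact Units.ext (j.injective h1)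
  let θ : ℕ → Kˣ →* ℂ := fun c => θ₀.comp (powMonoidHom c)
  have hθ : ∀ c x, θ c x = θ₀ (x ^ c) := fun _ _ => rfl
  have hT : ∀ c (x : Kˣ), C.T c (j x) = θ c x := fun c x => by
    rw [hθ, map_pow, Ctx.T, if_neg ((map_ne_zero j).2 x.ne_zero)]
    rfl
  refine (classInner_DD j hn hK (C.T a) (C.T b) (if_pos rfl) (θ a) (θ b) (hT a) (hT b)).trans ?_
  rw [← (FiniteField.bijective_frobeniusAlgEquivOfAlgebraic_pow F K).sum_comp,
    Fin.sum_univ_eq_sum_range (fun i => if ∀ x : Kˣ, θ a x * conj (θ b (Units.map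
      ((FiniteField.frobeniusAlgEquivOfAlgebraic F K ^ i : Gal(K/F)) : K →* K) x)) = 1
      then (1 : ℂ) else 0), hK, Finset.sum_boole, ← hN]
  congr 2
  refine Finset.filter_congr fun i _ => ?_
  have e : ∀ x : Kˣ, Units.map ((FiniteField.frobeniusAlgEquivOfAlgebraic F K ^ i : Gal(K/F)) :
      K →* K) x = x ^ Fintype.card F ^ i := fun x => Units.ext (by
    rw [Units.val_pow_eq_pow_val]
    exact (congrFun (AlgEquiv.coe_pow _ i) _).trans
      (congrFun (FiniteField.coe_frobeniusAlgEquivOfAlgebraic_iterate F K i) _))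
  have e1 : ∀ x : Kˣ, θ b x ^ N = 1 := fun x => by
    rw [← map_pow, ← hNK, pow_card_eq_one', map_one]
  simp only [mul_conj_iff hN0 (e1 _)]
  simp only [e, hθ, hθi.eq_iff, ← pow_mul, pow_eq_pow_iff_modEq]
  rw [mul_comm]
  refine ⟨fun h => ?_, fun h x => (h.symm.of_dvd (hNK ▸ orderOf_dvd_natCard x))⟩
  obtain ⟨g, hg⟩ := IsCyclic.exists_ofOrder_eq_natCard (α := Kˣ)
  have h1 := h g
  rw [hg, hNK] at h1
  exact h1.symm

end Cfsg.Agent.H66.GbGrm
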