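import Cfsg.Agent.H56.R3Kit
import Cfsg.Agent.H60.Homog

/-! Rank 3 groups with a Frobenius point stabiliser: the grid case. -/

set_option autoImplicit false

namespace Cfsg.Agent.H66.Grid

open MulAction H56.R3 Subgroup
open scoped Pointwise

universe u v

variable {G : Type u} {X : Type v} [Group G] [MulAction G X] {D : Data G X}

theorem mem_of_sq {Y : Subgroup G} {g : G} (ho : Odd (orderOf g)) (h : g * g ∈ Y) : g ∈ Y := by
  obtain ⟨m, hm⟩ := ho
  have := pow_mem h (m + 1)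
  rwa [← sq, ← pow_mul, show 2 * (m + 1) = orderOf g + 1 by omega, pow_succ, pow_orderOf_eq_one,
    one_mul] at this

theorem fix_smul {c e : G} {y : X} (h : c * e = e * c) (hy : c • y = y) : c • e • y = e • y := by
  rw [← mul_smul, h, mul_smul, hy]

/-- central in the kernel -/
def Ce (D : Data G X) (x : X) (e : G) : Prop := e ∈ D.K x ∧ ∀ c ∈ D.K x, c * e = e * c

theorem Ce.conj {x : X} {e : G} (h : Ce D x e) (g : G) : Ce D (g • x) (g * e * g⁻¹) :=
  ⟨D.K_conj g x e h.1, fun c hc => by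
    have := h.2 _ ((D.K_conj_iff g x (g⁻¹ * c * g)).1 (by simpa [mul_assoc] using hc))
    calc _ = g * (g⁻¹ * c * g * e) * g⁻¹ := by group
      _ = _ := by rw [this]; group⟩

/-- central elements of order `p` -/
def Z (D : Data G X) (p : ℕ) (x : X) : Subgroup G where
  carrier := {e | Ce D x e ∧ e ^ p = 1}
  one_mem' := ⟨⟨one_mem _, by simp⟩, one_pow _⟩
  mul_mem' := fun {a b} ha hb => ⟨⟨mul_mem ha.1.1 hb.1.1, fun c hc =>
    (Commute.mul_right (ha.1.2 c hc) (hb.1.2 c hc)).eq⟩, by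
      rw [Commute.mul_pow (hb.1.2 a ha.1.1), ha.2, hb.2, one_mul]⟩
  inv_mem' := fun {a} ha => ⟨⟨inv_mem ha.1.1, fun c hc => (Commute.inv_right (ha.1.2 c hc)).eq⟩, by
    rw [inv_pow, ha.2, inv_one]⟩

/-- non-adjacent points have a common central element -/
def Bi (D : Data G X) : Prop := ∀ {x y : X}, x ≠ y → ¬ D.adj x y → ∃ e ≠ 1, Ce D x e ∧ Ce D y e

/-- the line through `x`, `y` without `x` -/
def J (D : Data G X) (x y : X) : Set X := {w | w ≠ x ∧ ¬ D.adj x w ∧ ¬ D.adj y w}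

/-- the non-neighbours of `x` off the line through `x`, `y` -/
def M (D : Data G X) (x y : X) : Set X := {w | ¬ D.adj x w ∧ D.adj y w}

theorem J_eq {x y z w : X} (h1 : x ≠ y) (h2 : ¬ D.adj x y) (h3 : z ≠ w) (h4 : ¬ D.adj z w) :
    (J D z w).ncard = (J D x y).ncard ∧ (M D z w).ncard = (M D x y).ncard := by
  obtain ⟨g, rfl, rfl⟩ := D.tr2 h1 h2 h3 h4
  rw [← Set.ncard_smul_set g (J D x y), ← Set.ncard_smul_set g (M D x y)]
  constructor <;> congr 1 <;> ext u <;>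
    obtain ⟨u, rfl⟩ := MulAction.surjective g u <;> simp [J, M, D.inv_iff]

variable [Finite G] [Finite X]

theorem bi (h : D.Cen) : Bi D := by
  obtain ⟨x, y, hxy, z, hz, h1, hc, hy⟩ := h
  have hp := Nat.minFac_prime (mt orderOf_eq_one_iff.1 h1)
  have ho := orderOf_pow_orderOf_div (orderOf_pos z).ne' (Nat.minFac_dvd (orderOf z))
  generalize (orderOf z).minFac = p at *
  have c0 : Ce D x (z ^ (orderOf z / p)) :=
    ⟨pow_mem hz _, fun c k => (Commute.pow_right (hc c k) _).eq⟩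
  replace hy : z ^ (orderOf z / p) • y = y := pow_mem (show z ∈ stabilizer G y from hy) _
  generalize z ^ (orderOf z / p) = e at *
  have e1 : e ≠ 1 := fun k => hp.one_lt.ne' (by rw [← ho, k, orderOf_one])
  have e2 : e ∈ Z D p x := ⟨c0, ho ▸ pow_orderOf_eq_one e⟩
  have cj : ∀ g w, ∀ a ∈ Z D p w, g * a * g⁻¹ ∈ Z D p (g • w) := fun g w a ha =>
    ⟨ha.1.conj g, by rw [conj_pow, ha.2]; group⟩
  have na := D.not_adj_of_fix c0.1 e1 (D.K_fix c0.1) hy
  obtain ⟨g, g1, -⟩ := D.tr2 hxy na hxy.symm fun k => na (D.symm k)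
  let O : Set X := {u | ∃ c, c * e = e * c ∧ c • x = u}
  have key : ∀ w, Z D p w ≠ ⊥ → e • w = w → O.ncard ≡ (O ∩ {w}).ncard [MOD p] := fun w k1 k2 => by
    have := H60.ncard_modEq_of_isPGroup hp (Z D p w) (fun a => ⟨1, Subtype.ext (by simpa using a.2.2)⟩)
      O (by
        rintro a ha _ ⟨c, hc, rfl⟩
        exact ⟨a * c, (Commute.mul_left (ha.1.2 e (D.mem_K_of_fix c0.1 k2)).symm hc).eq,
          mul_smul _ _ _⟩)
    rwa [show fixedPoints (Z D p w) X = {w} from Set.eq_singleton_iff_unique_mem.2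
      ⟨fun a => D.K_fix a.2.1.1, fun u hu => (D.eq_of_fix (Z := Z D p w) (fun _ a => a.1.1) k1
        (fun g hg a ha => by simpa only [hg] using cj g w a ha) fun a ha => hu ⟨a, ha⟩).symm⟩] at this
  obtain ⟨c, c1, c2⟩ : y ∈ O := by
    by_contra k
    have k1 := key x (fun a => e1 (mem_bot.1 (a ▸ e2))) (D.K_fix c0.1)
    have k2 := key y (fun a => e1 (by simpa [g1, a] using cj g x e e2)) hy
    rw [Set.inter_singleton_of_mem (show x ∈ O from ⟨1, by simp, one_smul _ _⟩),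
      Set.ncard_singleton] at k1
    rw [Set.inter_singleton_of_notMem k, Set.ncard_empty] at k2
    exact hp.one_lt.ne' (Nat.dvd_one.1 (Nat.modEq_zero_iff_dvd.1 (k1.symm.trans k2)))
  have c3 := c0.conj c
  rw [c1, c2, mul_inv_cancel_right] at c3
  intro a b h1 h2
  obtain ⟨g, rfl, rfl⟩ := D.tr2 hxy na h1 h2
  exact ⟨_, by simpa using e1, c0.conj g, c3.conj g⟩

namespace Bi

variable (h : Bi D)
include h

omit [Finite X]

theorem L_eq {x y z w : X} (h1 : x ≠ y) (h2 : ¬ D.adj x y) (h3 : z ≠ w)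
    (hz : ∀ c ∈ D.K x ⊓ D.K y, c • z = z) (hw : ∀ c ∈ D.K x ⊓ D.K y, c • w = w) :
    D.K x ⊓ D.K y = D.K z ⊓ D.K w := by
  obtain ⟨e, e1, a, b⟩ := h h1 h2
  obtain ⟨g, rfl, rfl⟩ := D.tr2 h3
    (D.not_adj_of_fix a.1 e1 (hz e ⟨a.1, b.1⟩) (hw e ⟨a.1, b.1⟩)) h1 h2
  exact eq_of_le_of_card_ge
    (fun c k => ⟨D.mem_K_of_fix k.1 (hz c k), D.mem_K_of_fix k.1 (hw c k)⟩)
    (Nat.card_le_card_of_injective (fun c => ⟨g * c * g⁻¹, D.K_conj g _ _ c.2.1,
      D.K_conj g _ _ c.2.2⟩) fun a b k => Subtype.ext (by simpa using Subtype.mk.inj k))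

/-- no triangles -/
theorem nt {x y w : X} {e : G} (h1 : x ≠ y) (a : Ce D x e) (b : Ce D y e) (hx : ¬ D.adj x w)
    (hy : ¬ D.adj y w) : e • w = w := by
  by_contra k
  have q : ∀ {x}, Ce D x e → ¬ D.adj x w → D.K x ⊓ D.K w = D.K w ⊓ D.K (e • w) := fun a hx =>
    h.L_eq (fun m => k (m ▸ D.K_fix a.1)) hx (Ne.symm k) (fun c m => D.K_fix m.2)
      fun c m => fix_smul (a.2 c m.1) (D.K_fix m.2)
  have := h.L_eq (fun m : x = w => k (m ▸ D.K_fix a.1)) hx h1 (fun c m => D.K_fix m.1)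
    fun c m => D.K_fix ((q a hx).trans (q b hy).symm ▸ m).1
  exact k (D.K_fix (this ▸ show e ∈ D.K x ⊓ D.K y from ⟨a.1, b.1⟩).2)

theorem p1 {x y w w' : X} (h1 : x ≠ y) (h2 : ¬ D.adj x y) (hx : ¬ D.adj x w) (hy : ¬ D.adj y w)
    (hx' : ¬ D.adj x w') (hy' : ¬ D.adj y w') : ¬ D.adj w w' :=
  let ⟨_, e1, a, b⟩ := h h1 h2
  D.not_adj_of_fix a.1 e1 (h.nt h1 a b hx hy) (h.nt h1 a b hx' hy')

omit [Finite G] in
theorem p2 {x y : X} {c : G} (h1 : x ≠ y) (h2 : ¬ D.adj x y) (hc : c ∈ D.K x) :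
    c • y ∈ J D x y := by
  obtain ⟨e, e1, a, b⟩ := h h1 h2
  have k := D.K_fix hc
  exact ⟨fun m => h1 (MulAction.injective c (k.trans m.symm)), by rwa [← k, D.inv_iff],
    D.not_adj_of_fix a.1 e1 (D.K_fix b.1) (fix_smul (a.2 c hc).symm (D.K_fix b.1))⟩

theorem J_le {x y z : X} (hz : z ∈ M D x y) (h2 : ¬ D.adj x y) : J D x z ⊆ M D x y := fun _ k =>
  ⟨k.2.1, by_contra fun m => h.p1 k.1.symm k.2.1 h2 (fun a => m (D.symm a)) hz.1
    (fun a => k.2.2 (D.symm a)) hz.2⟩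

theorem count [Finite X] {x y : X} (h1 : x ≠ y) (h2 : ¬ D.adj x y) :
    D.k = (J D x y).ncard ^ 2 ∧ (M D x y).ncard = (J D x y).ncard ∧
      ∀ w ∈ J D x y, ∃ c ∈ D.K x, c • y = w := by
  obtain ⟨z, z1, z2⟩ := D.mu_lt h1.symm fun a => h2 (D.symm a)
  have z3 : x ≠ z := fun a => h2 (D.symm (a ▸ z1))
  have a1 : orbit (D.K x) y ⊆ J D x y := by rintro _ ⟨c, rfl⟩; exact h.p2 h1 h2 c.2
  have a2 := Nat.card_congr (orbitProdStabilizerEquivGroup (D.K x) y)
  rw [Nat.card_prod, D.card_K, Nat.card_coe_set_eq] at a2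
  have a3 : Nat.card (stabilizer (D.K x) y) ≤ Nat.card (J D x z) :=
    Nat.card_le_card_of_injective (fun c => ⟨c.1.1 • z, h.p2 z3 z2 c.1.2⟩) fun a b k =>
      Subtype.ext (Subtype.ext (inv_mul_eq_one.1 (D.K_free z1 _ (D.mem_K_of_fix
        (a.1⁻¹ * b.1).2 (a⁻¹ * b).2) (by
          rw [mul_smul, inv_smul_eq_iff]; exact (Subtype.mk.inj k).symm))))
  have a4 := Set.ncard_le_ncard (h.J_le (show z ∈ M D x y from ⟨z2, z1⟩) h2)
  rw [Nat.card_coe_set_eq, (J_eq h1 h2 z3 z2).1] at *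
  have a5 : Nat.card (Σ u : J D x y, M D u x) ≤ Nat.card {w // D.adj x w} :=
    Nat.card_le_card_of_injective (fun p => ⟨p.2.1, p.2.2.2⟩) (by
      rintro ⟨⟨u, hu⟩, w, hw⟩ ⟨⟨u', hu'⟩, w', hw'⟩ k
      obtain rfl : w = w' := Subtype.mk.inj k
      obtain rfl : u = u' := by_contra fun m => h.p1 m (h.p1 h1 h2 hu.2.1 hu.2.2 hu'.2.1 hu'.2.2)
        (fun a => hu.2.1 (D.symm a)) (fun a => hu'.2.1 (D.symm a)) hw.1 hw'.1 hw.2
      rfl)
  have := Fintype.ofFinite (J D x y)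
  rw [Nat.card_sigma, D.card_adj, Finset.sum_congr rfl fun (u : J D x y) _ =>
    (Nat.card_coe_set_eq _).trans (J_eq h1 h2 u.2.1 fun a => u.2.2.1 (D.symm a)).2,
    Finset.sum_const, Finset.card_univ, ← Nat.card_eq_fintype_card, Nat.card_coe_set_eq,
    smul_eq_mul] at a5
  have a6 := Set.ncard_le_ncard a1
  have a7 : 0 < (J D x y).ncard := (Set.ncard_pos).2 ⟨y, h1.symm, h2, D.irrefl y⟩
  refine ⟨by nlinarith, by nlinarith, fun w hw => ?_⟩
  obtain ⟨c, hc⟩ := Set.eq_of_subset_of_ncard_le a1 (by nlinarith) ▸ hw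
  exact ⟨c, c.2, hc⟩

theorem even [Finite X] : Even D.h := by
  have : Nonempty X := by
    by_contra k
    simpa [D.card_G, not_nonempty_iff.1 k] using (Nat.card_pos (α := G))
  obtain ⟨x⟩ := this
  obtain ⟨y, h1, h2⟩ := D.ex2 x
  obtain ⟨b, hb⟩ := D.ex1 x
  obtain ⟨z, z1, z2⟩ := D.mu_lt h1.symm fun a => h2 (D.symm a)
  have ne : ∀ {z}, D.adj y z → x ≠ z := fun z1 a => h2 (D.symm (a ▸ z1))
  have na : ∀ {g : G}, g • x = x → ¬ D.adj x (g • y) := fun k => by rwa [← k, D.inv_iff]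
  let Y : Subgroup G :=
    { carrier := {g | g • x = x ∧ ¬ D.adj y (g • y)}
      one_mem' := by simp [D.irrefl]
      mul_mem' := fun {a b} ha hb => by
        have k : (a * b) • x = x := by rw [mul_smul, hb.1, ha.1]
        exact ⟨k, h.p1 (fun m => h1 (MulAction.injective a (ha.1.trans m))) (na ha.1) h2
          (fun m => ha.2 (D.symm m)) (na k) (by rw [mul_smul, D.inv_iff]; exact hb.2)⟩
      inv_mem' := fun {a} ha => ⟨inv_smul_eq_iff.2 ha.1.symm, by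
        rw [← D.inv_iff a, smul_inv_smul]; exact fun m => ha.2 (D.symm m)⟩ }
  obtain ⟨g, g1, g2⟩ := D.tr2 h1 h2 (ne z1) z2
  obtain ⟨c, hc, c1⟩ := D.K_tr (g1 ▸ D.inv g hb) hb
  have k1 : (c * g) • x = x := by rw [mul_smul, g1, D.K_fix hc]
  have k2 : D.adj y ((c * g) • y) := by
    rw [mul_smul, g2]
    exact (h.J_le (show z ∈ M D x y from ⟨z2, z1⟩) h2 (h.p2 (ne z1) z2 hc)).2
  rw [← mul_smul] at c1
  generalize c * g = a at *
  by_contra n
  refine (mem_of_sq (Y := Y) ((Nat.not_even_iff_odd.1 n).of_dvd_nat (D.card_H hb ▸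
    Subgroup.orderOf_dvd_natCard _ (show a ∈ stabilizer G x ⊓ stabilizer G b from ⟨k1, c1⟩)))
    ⟨by rw [mul_smul, k1, k1], fun m => ?_⟩).2 k2
  have e := Set.eq_of_subset_of_ncard_le (h.J_le (show y ∈ M D x (a • y) from ⟨h2, D.symm k2⟩)
    (na k1)) (by rw [(h.count (ne k2) (na k1)).2.1, (J_eq h1 h2 (ne k2) (na k1)).1])
  have : (a * a) • y ∈ J D x y := e ▸ ⟨na (by rw [mul_smul, k1, k1]), by rwa [mul_smul, D.inv_iff]⟩
  exact this.2.2 m

end Bi

theorem grid : GridStmt.{u, v} := by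
  intro G X _ _ _ _ _ D hD
  have h : Bi D := bi hD
  obtain ⟨A, -⟩ := hD
  obtain ⟨C, h1, h2⟩ := D.ex2 A
  obtain ⟨B, hB⟩ := D.ex1 A
  obtain ⟨c1, c2, -⟩ := h.count h1 h2
  have ok := D.odd_k h.even
  have hn : Nat.card X = D.k + ((J D A C).ncard + (M D A C).ncard + 1) := by
    rw [← D.card_adj A, ← Set.ncard_union_eq, ← Set.ncard_insert_of_notMem (a := A),
      ← Set.ncard_add_ncard_compl {w | D.adj A w}]
    · congr 2
      ext w
      by_cases k : w = A <;> simp [k, J, M, D.irrefl]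
      tauto
    · simp [J, M, D.irrefl, show ¬ D.adj C A from fun a => h2 (D.symm a)]
    · exact Set.disjoint_left.2 fun w a b => a.2.2 b.2
  suffices (J D A C).ncard ≤ 3 by
    have := D.h_lt_k
    have := D.one_lt
    rw [c2, c1] at *
    generalize (J D A C).ncard = s at *
    interval_cases s <;> simp_all (config := { decide := true })
  by_contra! hs
  obtain ⟨e, e1, a, b⟩ := h h1 h2
  have eA := D.K_fix a.1
  have ex : ∀ p q r : X, ∃ u, e • u = u ∧ u ≠ A ∧ u ≠ p ∧ u ≠ q ∧ u ≠ r := fun p q r => by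
    obtain ⟨u, k1, k2⟩ := Set.exists_mem_notMem_of_ncard_lt_ncard (s := {p, q, r})
      (lt_of_le_of_lt ((Set.ncard_insert_le _ _).trans (by grw [Set.ncard_insert_le, Set.ncard_singleton])) hs)
    exact ⟨u, h.nt h1 a b k1.2.1 k1.2.2, k1.1, by simpa [not_or] using k2⟩
  have tr : ∀ {y u w}, e • y = y → e • u = u → e • w = w → u ≠ y → w ≠ y →
      ∃ c ∈ D.K y, c * e = e * c ∧ c • u = w := fun hy hu hw k1 k2 =>
    let ⟨c, hc, k⟩ := (h.count k1.symm (D.not_adj_of_fix a.1 e1 hy hu)).2.2 _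
      ⟨k2, D.not_adj_of_fix a.1 e1 hy hw, D.not_adj_of_fix a.1 e1 hu hw⟩
    ⟨c, hc, D.K_comm h.even hc (D.mem_K_of_fix a.1 hy), k⟩
  have f1 : ∀ {g y}, g * e = e * g → e • y = y → g • y = y → g ∈ D.K y := fun k hy k' =>
    by_contra fun m => e1 (D.fpf _ e k' m (D.mem_K_of_fix a.1 hy) k)
  have f2 : ∀ {g} {y u w : X}, g * e = e * g → e • y = y → e • u = u → u ≠ y → g • y = y → g • u = u →
      e • w = w → g • w = w := fun {g y u w} k hy hu n k1 k2 hw => by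
    by_cases m : w = y
    · rwa [m]
    obtain ⟨c, hc, -, rfl⟩ := tr hy hu hw n m
    exact fix_smul (D.K_comm h.even (f1 k hy k1) hc) k2
  have od : ∀ {c} {u : X}, c ∈ D.K A → c • c • u = u → c • u = u := fun {c u} hc k =>
    mem_of_sq (Y := stabilizer G u) (ok.of_dvd_nat (D.orderOf_dvd hc)) ((mul_smul _ _ _).trans k)
  obtain ⟨t, ht, tA, -⟩ := D.exists_inv h.even hB
  have tt : ∀ u : X, t • t • u = u := fun u => by
    rw [← mul_smul, ← sq, ← ht, pow_orderOf_eq_one, one_smul]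
  have ti : ∀ c ∈ D.K A, ∀ u : X, c • t • c • u = t • u := fun c hc u => by
    rw [← mul_smul t, mul_inv_eq_iff_eq_mul.1 (D.inverts ok ht tA hc), mul_smul, smul_inv_smul]
  have tn : ∀ {g}, g * e = e * g → t * g * t⁻¹ * e = e * (t * g * t⁻¹) := fun {g} k => by
    have := (Commute.inv_right k).conj t
    rwa [D.inverts ok ht tA (inv_mem a.1), inv_inv] at this
  have t1 : ∀ {u w : X}, e • u = u → e • w = w → u ≠ A → w ≠ A → t • u = u → t • w = w → u = w :=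
    fun hu hw k1 k2 k3 k4 => by
      obtain ⟨c, hc, -, rfl⟩ := tr eA hu hw k1 k2
      exact (od hc (by rw [← k4, ti c hc, k3])).symm
  have W : ∀ {u : X}, e • u = u → t • u ≠ u → ∃ w, w * e = e * w ∧ w • u = t • u ∧ w • A ≠ A ∧
      t • w • A = w • A ∧ w • w • A = A := fun {u} hu n => by
    have hu' : e • t • u = t • u := by simpa only [hu] using ti e a.1 u
    obtain ⟨y, hy, -, y1, y2, -⟩ := ex u (t • u) u
    obtain ⟨c, -, k1, k2⟩ := tr hy hu hu' y1.symm y2.symm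
    obtain ⟨d, hd, k3, k4⟩ := tr hu' (fix_smul k1.symm hu') hu
      (fun m => n (MulAction.injective c (m.trans k2.symm))) n.symm
    have k5 : d * c * e = e * (d * c) := (Commute.mul_left k3 k1).eq
    have k6 : (d * c) • u = t • u := by rw [mul_smul, k2, D.K_fix hd]
    rw [← mul_smul] at k4
    generalize d * c = w at *
    refine ⟨w, k5, k6, fun m => n (k6 ▸ od (f1 k5 eA m) (by rw [k6, k4])), ?_, (mul_smul _ _ _).symm.trans
      (f2 (Commute.mul_left k5 k5).eq hu hu' n (by rw [mul_smul, k6, k4]) (by rw [mul_smul, k4, k6]) eA)⟩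
    have := f2 (Commute.mul_left (Commute.inv_left k5) (tn k5)).eq hu hu' n
      (by simp only [mul_smul, inv_smul_eq_iff.2 (tt u).symm, k4, inv_smul_eq_iff, k6])
      (by simp only [mul_smul, inv_smul_smul, k6, tt, inv_smul_eq_iff, k4]) eA
    simpa only [mul_smul, inv_smul_eq_iff.2 tA.symm, inv_smul_eq_iff] using this
  obtain ⟨x, x1, x2⟩ : ∃ x, e • x = x ∧ t • x ≠ x := by
    obtain ⟨u, u1, u2, -⟩ := ex A A A
    obtain ⟨w, w1, w2, w3, -⟩ := ex u u u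
    by_contra! m
    exact w3 (t1 w1 u1 w2 u2 (m w w1) (m u u1))
  obtain ⟨w, w1, -, w2, w3, w4⟩ := W x1 x2
  have eC := fix_smul w1.symm eA
  have τ : ∀ u, e • u = u → u ≠ A → u ≠ w • A → (t * w) • u = u := fun u hu k1 k2 => by
    obtain ⟨v, v1, v2, v3, v4, v5⟩ := W hu fun m => k2 (t1 hu eC k1 w2 m w3)
    have m := t1 (fix_smul v1.symm eA) eC v3 w2 v4 w3
    have := f2 (Commute.mul_left (Commute.inv_left w1) v1).eq eA eC w2
      (by rw [mul_smul, m, inv_smul_smul]) (by rw [mul_smul, inv_smul_eq_iff, w4, ← m, v5]) hu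
    rw [mul_smul, inv_smul_eq_iff, v2] at this
    rw [mul_smul, ← this, tt]
  obtain ⟨u, u1, u2, u3, -⟩ := ex (w • A) A A
  obtain ⟨c, hc, k1, k2⟩ := tr eA eC u1 w2 u2
  have cA := D.K_fix hc
  have fx : ∀ y, e • y = y → y ≠ A → y ≠ w • A → y ≠ c⁻¹ • w • A →
      (c⁻¹ * (t * (w * c * w⁻¹) * t⁻¹)) • y = y := fun y hy a1 a2 a3 => by
    rw [show c⁻¹ * (t * (w * c * w⁻¹) * t⁻¹) = c⁻¹ * (t * w) * c * (t * w)⁻¹ by group, mul_smul,
      inv_smul_eq_iff.2 (τ y hy a1 a2).symm, mul_smul, mul_smul, τ _ (fix_smul k1.symm hy)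
      (fun m => a1 (MulAction.injective c (m.trans cA.symm))) fun m => a3 (eq_inv_smul_iff.2 m),
      inv_smul_smul]
  obtain ⟨y, y1, y2, y3, y4, -⟩ := ex (w • A) (c⁻¹ • w • A) A
  obtain ⟨y', z1, z2, z3, z4, z5⟩ := ex (w • A) (c⁻¹ • w • A) y
  have := f2 (Commute.mul_left (Commute.inv_left k1) (tn ((Commute.mul_left w1 k1).mul_left
    (Commute.inv_left w1)))).eq y1 z1 z5 (fx y y1 y2 y3 y4) (fx y' z1 z2 z3 z4) eC
  simp only [mul_smul, inv_smul_eq_iff.2 w3.symm, inv_smul_smul, cA, w3, inv_smul_eq_iff] at this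
  exact u3 (k2 ▸ this.symm)

end Cfsg.Agent.H66.Grid
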