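import Mathlib
import Cfsg.Agent.H76.K0Defs
import Cfsg.Agent.H21.Basic
import Cfsg.Agent.H17.Idem

set_option autoImplicit false

namespace Cfsg.Agent.H66.K0Fw2

open Cfsg Cfsg.Agent.H76.K0

universe u

theorem finsum_two {α β : Type*} [AddCommMonoid β] [Finite α] {t c : α} (hc : c ≠ t)
    (h : ∀ y, y ≠ t → y = c) (f : α → β) : ∑ᶠ x, f x = f t + f c := by
  classical
  have := Fintype.ofFinite α
  rw [finsum_eq_sum_of_fintype]
  have e : (Finset.univ : Finset α) = {t, c} := by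
    ext y
    by_cases hy : y = t
    · simp [hy]
    · simp [h y hy]
  rw [e, Finset.sum_pair hc.symm]

theorem fw2 (r0 : R0Stmt.{u}) (duo : DuoStmt.{u}) : Fw2Stmt.{u} := by
  intro G _ _ p hp M hM P hk
  obtain ⟨h1, h2, h3, h4⟩ := r0 G p M hM P
  have hpP : p ∣ Nat.card P := by
    by_contra h
    rw [h4 h] at hk
    omega
  have hp1 : ¬ p ∣ 1 := fun h => hp.out.ne_one (Nat.dvd_one.1 h)
  let t : Ht0 p M G := ⟨H21.triv G, H21.triv_mem_principal hM.2.1, by
    rw [H21.triv_coe, H21.charDegree_one]; exact hp1⟩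
  haveI : Finite (Ht0 p M G) := Nat.finite_of_card_ne_zero (by omega)
  obtain ⟨c, hc, hu⟩ := (Nat.card_eq_two_iff' t).1 hk
  have ht : charDegree (t.1 : G → ℂ) = 1 := H21.charDegree_one
  have htg : ∀ g, (t.1 : G → ℂ) g = 1 := fun _ => rfl
  replace h1 := h1 hpP
  replace h2 := h2 hpP
  rw [finsum_two hc hu, ht] at h2 h3
  have hne : (c.1 : G → ℂ) ≠ fun _ => 1 := fun h => hc (Subtype.ext (Subtype.ext h))
  have hd := c.2.2
  set d := charDegree (c.1 : G → ℂ) with hdd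
  obtain ⟨w, hw⟩ := h2
  have hw' : (1 : ℤ) + (d : ℤ) ^ 2 = p * w := by exact_mod_cast hw
  have hr : 0 < d % p := Nat.pos_of_ne_zero fun h => hd (Nat.dvd_of_mod_eq_zero h)
  have hr' : d % p < p := Nat.mod_lt _ hp.out.pos
  have hdm : (p : ℤ) * (d / p : ℕ) + (d % p : ℕ) = d := by exact_mod_cast Nat.div_add_mod d p
  set r := d % p
  set q := d / p
  have hp0 : (p : ℂ) ≠ 0 := by exact_mod_cast hp.out.ne_zero
  have hs : ((p : ℤ) - r) * d - 1 = p * (d + q * d - w) := by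
    linear_combination (-1 : ℤ) * hw' - (d : ℤ) * hdm
  have key := duo G c.1 hne p hp.out.pos ((p : ℤ) - r) 1 (fun g => by
    obtain ⟨α, hα, e⟩ := h1 g
    rw [finsum_two hc hu, ht, htg] at e
    have hs' : (((p : ℤ) - r : ℤ) : ℂ) * d - 1 = p * ((d + q * d - w : ℤ) : ℂ) := by
      exact_mod_cast congrArg (Int.cast : ℤ → ℂ) hs
    have e2 : ((((p : ℤ) - r : ℤ) : ℂ) + ((1 : ℤ) : ℂ) * (c.1 : G → ℂ) g) / p =
        (((p : ℤ) - r : ℤ) : ℂ) * α - ((d + q * d - w : ℤ) : ℂ) * (c.1 : G → ℂ) g := by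
      rw [div_eq_iff hp0]
      rw [← hdd] at e
      simp only [Int.cast_one, Nat.cast_one] at e ⊢
      linear_combination (((p : ℤ) - r : ℤ) : ℂ) * e - (c.1 : G → ℂ) g * hs'
    rw [e2]
    exact ((isIntegral_algebraMap (R := ℤ) (A := ℂ) (x := _)).mul hα).sub
      ((isIntegral_algebraMap (R := ℤ) (A := ℂ) (x := _)).mul (H17.irr_isIntegral c.1 g)))
  obtain ⟨k1, k2⟩ := key
  have hrz : (0 : ℤ) < r := by exact_mod_cast hr
  have hrz' : (r : ℤ) < p := by exact_mod_cast hr'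
  have ha : (p : ℤ) - r = 1 := by nlinarith
  have hr1 : (r : ℤ) = 1 := by nlinarith
  have hp2 : p = 2 := by omega
  have hd1 : d = 1 := by
    rcases k2 (by rw [ha, hp2]; norm_num) with h | h <;> rw [ha, ← hdd] at h <;> omega
  have hn : ¬ p ^ 2 ∣ Nat.card P := fun h => by
    have := h3 h
    rw [hd1, hp2] at this
    omega
  obtain ⟨j, hj⟩ := P.isPGroup'.exists_card_eq
  rw [hj] at hpP hn ⊢
  rcases j with _ | _ | j
  · exact absurd hpP hp1
  · simpa using hp2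
  · exact absurd (pow_dvd_pow p (by omega)) hn

end Cfsg.Agent.H66.K0Fw2
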