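import Cfsg.Agent.H50.L81Defs

/-! Project L81, piece CH. -/

set_option autoImplicit false

namespace Cfsg.Agent.H66.L81Ch

open Cfsg.Agent.H82 Cfsg.Agent.H50.L81 Cfsg.Agent.H50.E83
open scoped MatrixGroups

theorem hh_pow {E : Type*} [Field E] (s : E) (hs : s ≠ 0) (k : ℕ) :
    hh s hs ^ k = hh (s ^ k) (pow_ne_zero k hs) := by
  induction k with
  | zero => apply SL2_ext <;> simp [ent]
  | succ k ih =>
    rw [pow_succ, ih]
    apply SL2_ext <;> simp only [ent]
    · rw [pow_succ]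
    · rw [pow_succ, mul_inv]

theorem key {G E : Type*} [Group G] [Field E] (ψ : SL(2, E) →* G)
    (hc : Subgroup.closure (Set.range (uu (F := E)) ∪ Set.range (ll (F := E))) = ⊤) (a : G) (s : E)
    (hs : s ≠ 0) (h : ∀ t, a * ψ (uu t) * a⁻¹ = ψ (uu (s * (s * t))) ∧
      a * ψ (ll t) * a⁻¹ = ψ (ll (s⁻¹ * (s⁻¹ * t)))) (x : SL(2, E)) :
    Commute ((ψ (hh s hs))⁻¹ * a) (ψ x) := by
  have hx : x ∈ Subgroup.closure (Set.range (uu (F := E)) ∪ Set.range (ll (F := E))) :=
    hc ▸ Subgroup.mem_top x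
  have k : ∀ y z : SL(2, E), a * ψ y * a⁻¹ = ψ z → z * hh s hs = hh s hs * y →
      Commute ((ψ (hh s hs))⁻¹ * a) (ψ y) := fun y z e e' => by
    have e2 := congrArg ψ e'
    rw [map_mul, map_mul, ← e] at e2
    show _ * _ = _ * _
    calc (ψ (hh s hs))⁻¹ * a * ψ y
        = (ψ (hh s hs))⁻¹ * (a * ψ y * a⁻¹ * ψ (hh s hs)) * ((ψ (hh s hs))⁻¹ * a) := by group
      _ = _ := by rw [e2]; group
  induction hx using Subgroup.closure_induction with
  | mem y hy =>
    rcases hy with ⟨t, rfl⟩ | ⟨t, rfl⟩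
    · refine k _ _ (h t).1 ?_
      apply SL2_ext <;> simp only [ent]
      field_simp
    · refine k _ _ (h t).2 ?_
      apply SL2_ext <;> simp only [ent]
      field_simp
  | one => rw [map_one]; exact Commute.one_right _
  | mul y z _ _ hy hz => rw [map_mul]; exact hy.mul_right hz
  | inv y _ hy => rw [map_inv]; exact hy.inv_right

theorem ch (par : ParStmt) (ch2 : Ch2Stmt) : ChStmt := by
  intro H ψ hE p g hg hc
  obtain ⟨c, c', h⟩ := ch2 H ψ hE p g hg hc
  obtain ⟨kr, hH, -, hZ⟩ := hE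
  obtain ⟨-, -, hcl, hp⟩ := par
  have h3 : (3 : F) = 0 := CharP.cast_eq_zero F 3
  have c0 : c ≠ 0 := by
    rintro rfl
    have h1 := (h 1).1
    rw [zero_mul, uu_zero, map_one, mul_inv_eq_one, mul_eq_left] at h1
    rcases (kr _).1 h1 with e | e <;> have := congrArg (fun x : SL => x 0 1) e <;>
      simp only [ent] at this <;> exact one_ne_zero this
  have c0' : c' ≠ 0 := by
    rintro rfl
    have h1 := (h 1).2
    rw [zero_mul, ll_zero, map_one, mul_inv_eq_one, mul_eq_left] at h1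
    rcases (kr _).1 h1 with e | e <;> have := congrArg (fun x : SL => x 1 0) e <;>
      simp only [ent] at this <;> exact one_ne_zero this
  have cc : c' = c⁻¹ := by
    have e1 : (uu 1 * ll (-1) : SL) ^ 3 = -1 := by
      rw [pow_three]
      apply SL2_ext <;> simp only [ent] <;> ring
    have e2 : ψ ((uu (c * 1) * ll (c' * -1)) ^ 3) = 1 := by
      rw [map_pow, map_mul, ← (h 1).1, ← (h (-1)).2, conj_mul, conj_pow, ← map_mul, ← map_pow, e1,
        (kr _).2 (.inr rfl), mul_one, mul_inv_cancel]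
    have e3 : ((uu (c * 1) * ll (c' * -1) : SL) ^ 3) 0 1 = 0 := by
      rcases (kr _).1 e2 with e | e <;> rw [e] <;> simp only [ent]
    rw [pow_three] at e3
    simp only [ent] at e3
    have e4 : c * (c * c') * (c * c' - 1) = 0 := by
      linear_combination e3 + (c * c * c' - c) * h3
    rcases mul_eq_zero.1 e4 with e | e
    · exact absurd e (mul_ne_zero c0 (mul_ne_zero c0 c0'))
    · exact eq_inv_of_mul_eq_one_right (sub_eq_zero.1 e)
  subst cc
  have fin : ∀ a ∈ H, ∀ s (hs : s ≠ 0), (∀ t, a * ψ (uu t) * a⁻¹ = ψ (uu (s * (s * t))) ∧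
      a * ψ (ll t) * a⁻¹ = ψ (ll (s⁻¹ * (s⁻¹ * t)))) → a = ψ (hh s hs) := fun a ha s hs h' =>
    (inv_mul_eq_one.1 (hZ _ (mul_mem (inv_mem (hH _)) ha) (key ψ hcl a s hs h'))).symm
  have e : g ^ 2 = ψ (hh c c0) := fin _ (pow_mem hg 2) c c0 fun t => by
    rw [← (h _).1, ← (h _).1, ← (h _).2, ← (h _).2]
    constructor <;> rw [pow_two] <;> group
  refine ⟨?_, fun h1 => ?_⟩
  · obtain ⟨k, hk⟩ := (hp p).2.2.2.2.2.2.2.1 c c0
    exact ⟨k, by rw [e, hk, map_pow]⟩
  · rw [h1] at e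
    rcases (kr _).1 e.symm with e1 | e1
    · have e2 : c = 1 := congrArg (fun x : SL => x 0 0) e1
      subst e2
      left
      rw [fin g hg 1 one_ne_zero (by simpa using h), e1, map_one]
    · have e2 : c = -1 := congrArg (fun x : SL => x 0 0) e1
      subst e2
      right
      have e3 : (p.l : F) ^ 20 * (p.l : F) ^ 20 = -1 := by
        rw [← pow_add]
        exact ((IsPrimitiveRoot.coe_units_iff.2 p.hl).pow (by norm_num)
          (show 80 = 40 * 2 from rfl)).eq_neg_one_of_two_right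
      rw [← map_pow, t0, hh_pow]
      refine fin g hg _ _ fun t => ?_
      rw [← mul_assoc ((p.l : F) ^ 20), ← mul_assoc ((p.l : F) ^ 20)⁻¹, ← mul_inv, e3]
      exact h t

end Cfsg.Agent.H66.L81Ch
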