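import Mathlib
import Cfsg.Agent.H89.PBasic

/-! The iterated wreath product `2 ≀ 2 ≀ 2` and its homomorphisms. -/

set_option autoImplicit false
set_option maxRecDepth 100000

namespace Cfsg.Agent.H66.N7W

open Subgroup Equiv

universe u

/-- the wreath product with a group of order two -/
@[ext] structure Wr (H : Type) where
  l : H
  r : H
  s : Bool
deriving DecidableEq

namespace Wr

variable {H : Type}

instance [Fintype H] : Fintype (Wr H) :=
  Fintype.ofEquiv (H × H × Bool) ⟨fun p => ⟨p.1, p.2.1, p.2.2⟩, fun w => (w.l, w.r, w.s),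
    fun _ => rfl, fun _ => rfl⟩

variable [Group H]

instance : Group (Wr H) where
  mul x y := ⟨x.l * cond x.s y.r y.l, x.r * cond x.s y.l y.r, xor x.s y.s⟩
  one := ⟨1, 1, false⟩
  inv x := ⟨(cond x.s x.r x.l)⁻¹, (cond x.s x.l x.r)⁻¹, x.s⟩
  mul_assoc := by
    rintro ⟨a, b, _ | _⟩ ⟨c, d, _ | _⟩ ⟨e, f, _ | _⟩ <;>
      exact Wr.ext (mul_assoc _ _ _) (mul_assoc _ _ _) rfl
  one_mul := by rintro ⟨a, b, _ | _⟩ <;> exact Wr.ext (one_mul _) (one_mul _) rfl
  mul_one := by rintro ⟨a, b, _ | _⟩ <;> exact Wr.ext (mul_one _) (mul_one _) rfl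
  inv_mul_cancel := by rintro ⟨a, b, _ | _⟩ <;> exact Wr.ext (inv_mul_cancel _) (inv_mul_cancel _) rfl

variable {G : Type u} [Group G]

/-- the universal property -/
def lift (φ : H →* G) (m : G) (mm : m * m = 1) (hc : ∀ x y, Commute (φ x) (m * φ y * m)) :
    Wr H →* G := MonoidHom.mk' (fun w => φ w.l * (m * φ w.r * m) * cond w.s m 1) (by
  have k : ∀ x, m * (m * x) = x := fun x => by rw [← mul_assoc, mm, one_mul]
  rintro ⟨a, b, _ | _⟩ ⟨c, d, s⟩
  · change φ (a * c) * (m * φ (b * d) * m) * cond (xor false s) m 1 =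
      φ a * (m * φ b * m) * 1 * (φ c * (m * φ d * m) * cond s m 1)
    rw [mul_one, mul_assoc (φ a) _ (_ * _), ← mul_assoc (m * φ b * m), ← mul_assoc (m * φ b * m),
      ← (hc c b).eq]
    simp only [map_mul, Bool.false_xor, mul_assoc, k]
  · change φ (a * d) * (m * φ (b * c) * m) * cond (xor true s) m 1 =
      φ a * (m * φ b * m) * m * (φ c * (m * φ d * m) * cond s m 1)
    rw [map_mul, mul_assoc (φ a), (hc d (b * c)).eq]
    cases s <;> simp [mul_assoc, mm])

theorem eqns_lift : True := by have := @lift.eq_1.{0}; trivial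

theorem lift_apply (φ : H →* G) (m : G) (mm hc) (w : Wr H) :
    lift φ m mm hc w = φ w.l * (m * φ w.r * m) * cond w.s m 1 := rfl

theorem commute_lift {φ : H →* G} {m g : G} (mm hc) (h : ∀ x, Commute g (φ x)) (hm : Commute g m)
    (w : Wr H) : Commute g (lift φ m mm hc w) :=
  ((h _).mul_right ((hm.mul_right (h _)).mul_right hm)).mul_right (by
    cases w.s
    exacts [Commute.one_right g, hm])

theorem lift_mem {φ : H →* G} {m : G} (mm hc) {Q : Subgroup G} (h : ∀ x, φ x ∈ Q) (hm : m ∈ Q)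
    (w : Wr H) : lift φ m mm hc w ∈ Q :=
  mul_mem (mul_mem (h _) (mul_mem (mul_mem hm (h _)) hm)) (by
    cases w.s
    exacts [one_mem Q, hm])

end Wr

open Wr

/-- the group of order `128` -/
abbrev W := Wr (Wr (Wr Unit))

/-- the relations -/
structure Rl {G : Type u} [Group G] (e a m : G) : Prop where
  ee : e * e = 1
  aa : a * a = 1
  mm : m * m = 1
  ea : Commute e (a * e * a)
  em : Commute e (m * e * m)
  am : Commute a (m * e * m)
  aa' : Commute a (m * a * m)

/-- the transposition -/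
def we : W := ⟨⟨⟨(), (), true⟩, 1, false⟩, 1, false⟩
def wa : W := ⟨⟨1, 1, true⟩, 1, false⟩
def wm : W := ⟨1, 1, true⟩
/-- the centre -/
def wc : W := ⟨⟨⟨(), (), true⟩, ⟨(), (), true⟩, false⟩, ⟨⟨(), (), true⟩, ⟨(), (), true⟩, false⟩, false⟩
/-- even elements -/
def Ev (w : W) : Prop := xor (xor w.l.l.s w.l.r.s) (xor w.r.l.s w.r.r.s) = false

instance : DecidablePred Ev := fun _ => inferInstanceAs (Decidable (_ = _))

theorem eqns_w : True := by
  have := @we.eq_1; have := @wa.eq_1; have := @wm.eq_1; have := @wc.eq_1; have := @Ev.eq_1; trivial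

theorem card_W : Nat.card W = 2 ^ 7 := Nat.card_eq_fintype_card.trans rfl

theorem wc_eq : wc = we * (wa * we * wa) * (wm * (we * (wa * we * wa)) * wm) := by decide

variable {G : Type u} [Group G] {e a m : G}

theorem conj_comm {m x y : G} (mm : m * m = 1) (h : Commute x (m * y * m)) : Commute y (m * x * m) := by
  have e : ∀ z, m * z * m = MulAut.conj m z := fun z => by
    rw [MulAut.conj_apply, inv_eq_of_mul_eq_one_right mm]
  have := h.map (MulAut.conj m)
  rw [← e, ← e, ← mul_assoc, ← mul_assoc, mm, one_mul, mul_assoc y, mm, mul_one] at this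
  exact this.symm

namespace Rl

variable (h : Rl e a m)

def φ1 : Wr Unit →* G := lift 1 e h.ee fun _ _ => Commute.one_left _

theorem c1 {g : G} (hg : Commute g e) (x : Wr Unit) : Commute g (h.φ1 x) :=
  commute_lift _ _ (fun _ => Commute.one_right _) hg x

def φ2 : Wr (Wr Unit) →* G := lift h.φ1 a h.aa fun x y =>
  (h.c1 (conj_comm h.aa (h.c1 h.ea.symm y).symm).symm x).symm

theorem c2 {g : G} (hg : Commute g e) (ha : Commute g a) (x : Wr (Wr Unit)) : Commute g (h.φ2 x) :=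
  commute_lift _ _ (h.c1 hg) ha x

/-- the homomorphism -/
def ψ : W →* G := lift h.φ2 m h.mm fun x y =>
  (h.c2 (conj_comm h.mm (h.c2 h.em.symm h.am.symm y).symm).symm
    (conj_comm h.mm (h.c2 (conj_comm h.mm h.am).symm h.aa'.symm y).symm).symm x).symm

theorem eqns_ψ : True := by
  have := @φ1.eq_1.{0}; have := @φ2.eq_1.{0}; have := @ψ.eq_1.{0}; trivial

theorem ψ_e : h.ψ we = e := by
  rw [ψ, we, lift_apply, map_one, φ2, lift_apply, map_one]
  simp [h.mm, h.aa, φ1, lift_apply, h.ee]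

theorem ψ_a : h.ψ wa = a := by
  rw [ψ, wa, lift_apply, map_one, φ2, lift_apply, map_one]
  simp [h.mm, h.aa]

theorem ψ_m : h.ψ wm = m := by
  rw [ψ, wm, lift_apply, map_one]
  simp [h.mm]

theorem ψ_mem {Q : Subgroup G} (he : e ∈ Q) (ha : a ∈ Q) (hm : m ∈ Q) (w : W) : h.ψ w ∈ Q :=
  lift_mem _ _ (lift_mem _ _ (lift_mem _ _ (fun _ => one_mem Q) he) ha) hm w

theorem ψ_inj (hc : e * (a * e * a) * (m * (e * (a * e * a)) * m) ≠ 1) : Function.Injective h.ψ := by
  rw [← MonoidHom.ker_eq_bot_iff]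
  by_contra n
  have : Fact (Nat.Prime 2) := ⟨Nat.prime_two⟩
  obtain ⟨z, h1, h2, h3⟩ := H89.exists_mem_center_of_normal (IsPGroup.of_card card_W) n
  obtain rfl := (by decide +kernel : ∀ z : W, we * z = z * we → wa * z = z * wa → wm * z = z * wm →
    z ≠ 1 → z = wc) z (mem_center_iff.1 h2 _) (mem_center_iff.1 h2 _) (mem_center_iff.1 h2 _) h3
  rw [MonoidHom.mem_ker, wc_eq] at h1
  simp only [map_mul, ψ_e, ψ_a, ψ_m] at h1
  exact hc h1

theorem ψ_ev {A : Type*} [Group A] (χ : G →* A) (he : χ e ≠ 1) (ha : χ a = 1) (hm : χ m = 1) (w : W) :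
    χ (h.ψ w) = 1 ↔ Ev w := by
  have ee : χ e * χ e = 1 := by rw [← map_mul, h.ee, map_one]
  have k : ∀ c, χ (cond c a 1) = 1 ∧ χ (cond c m 1) = 1 := by rintro (_ | _) <;> simp [ha, hm]
  obtain ⟨⟨⟨_, _, i⟩, ⟨_, _, j⟩, _⟩, ⟨⟨_, _, i'⟩, ⟨_, _, j'⟩, _⟩, _⟩ := w
  simp only [ψ, φ2, φ1, lift_apply, map_mul, ha, hm, k, MonoidHom.one_apply, mul_one, one_mul,
    ee, Ev]
  cases i <;> cases j <;> cases i' <;> cases j' <;> simp [ee, he]

end Rl

theorem rl8 : Rl (swap 4 5 : Perm (Fin 8)) (swap 4 6 * swap 5 7)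
    (swap 0 4 * swap 1 5 * (swap 2 6 * swap 3 7)) := by
  refine ⟨?_, ?_, ?_, ?_, ?_, ?_, ?_⟩ <;> (try unfold Commute SemiconjBy) <;> decide +kernel

/-- the even elements -/
def K : Subgroup W := (Perm.sign.comp rl8.ψ).ker

theorem eqns_K : True := by have := @K.eq_1; trivial

theorem mem_K {w : W} : w ∈ K ↔ Ev w :=
  rl8.ψ_ev Perm.sign (by rw [Perm.sign_swap (by decide)]; decide) (by simp) (by simp) w

theorem index_K : K.index = 2 := by
  rw [index_eq_two_iff]
  simp only [mem_K]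
  exact ⟨we, by decide +kernel⟩

theorem card_K : Nat.card K = 2 ^ 6 := by
  have := K.card_mul_index
  rw [index_K, card_W] at this
  omega

theorem K_iso (P : Sylow 2 (alternatingGroup (Fin 8))) :
    Nonempty (K ≃* (P : Subgroup (alternatingGroup (Fin 8)))) := by
  have : Fact (Nat.Prime 2) := ⟨Nat.prime_two⟩
  have i := rl8.ψ_inj (by decide +kernel)
  have le : K.map rl8.ψ ≤ alternatingGroup (Fin 8) := by rintro _ ⟨w, hw, rfl⟩; exact hw
  let e := (K.equivMapOfInjective _ i).trans (subgroupOfEquivOfLe le).symm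
  have c := (Nat.card_congr e.toEquiv).symm.trans card_K
  have d := ((K.map rl8.ψ).subgroupOf (alternatingGroup (Fin 8))).card_mul_index
  rw [c, nat_card_alternatingGroup, Nat.card_fin] at d
  exact ⟨e.trans (Sylow.equiv ((IsPGroup.of_card c).toSylow (by
    norm_num [Nat.factorial] at d; omega)) P)⟩

def wt : W := wm * we * wm
def wz : W := we * (wa * we * wa)
def wf : W := wm * wz * wm
def wb : W := (wt * wf * wz)⁻¹ * we
def wd : W := wa * (wm * wa * wm)

theorem eqns_wt : True := by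
  have := @wt.eq_1; have := @wz.eq_1; have := @wf.eq_1; have := @wb.eq_1; have := @wd.eq_1; trivial

/-- the classes of involutions -/
theorem classes : ∀ w : W, w * w = 1 → ∃ u, ∃ v ∈ [1, wz, wb, wa, wf * wz, wf * wa, wt * wz, wt * wa,
    wt, wd, wm], w = u * v * u⁻¹ := by decide +kernel

theorem om_of : ∀ u : W, ∀ v ∈ [wt, wd, wm], u * v * u⁻¹ * wt = wt * (u * v * u⁻¹) →
    u * v * u⁻¹ ∈ [wt, wt * wf, we, we * wz] := by decide +kernel

theorem om_three : ∀ x ∈ [wt, wt * wf, we, we * wz], ∀ y ∈ [wt, wt * wf, we, we * wz],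
    wt * x * y ∈ [wt, wt * wf, we, we * wz] → x = wt ∨ y = wt ∨ x = y := by decide +kernel

end Cfsg.Agent.H66.N7W
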