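import Cfsg.Agent.H42.N7Defs
import Cfsg.Agent.H66.N7W

/-! Case (b): `t ∉ X` and the Sylow subgroups of `X` are those of `A₈`. -/

set_option autoImplicit false
set_option maxRecDepth 100000

namespace Cfsg.Agent.H66.N7W

open Subgroup Equiv Cfsg.Agent.H85 Cfsg.Agent.H42.N7

universe u

variable {G : Type u} [Group G]

theorem isConj_cn (x g : G) : IsConj x (cn x g) := isConj_iff.2 ⟨g⁻¹, by simp [cn]⟩

theorem cn_m {x m : G} (mm : m * m = 1) : cn x m = m * x * m := by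
  rw [cn, inv_eq_of_mul_eq_one_right mm]

theorem mm_cn {x m : G} (mm : m * m = 1) : m * cn x m * m = x := by
  rw [cn_m mm, ← mul_assoc, ← mul_assoc, mm, one_mul, mul_assoc, mm, mul_one]

theorem comm_z (h : RW G) {g : G} (ha : Commute g h.a) (hb : Commute g h.b) : Commute g h.z := by
  have : h.z = h.a⁻¹ * cn h.a h.b := by rw [h.ab, inv_mul_cancel_left]
  rw [this]
  exact ha.inv_right.mul_right ((hb.inv_right.mul_right ha).mul_right hb)

theorem aea (h : RW G) : h.a * cn h.t h.m * h.a = cn h.t h.m * h.z := by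
  have e : h.a * h.b = h.b * (h.a * h.z) := by rw [← h.ab, cn]; group
  rw [h.tm, ← mul_assoc, ← ((h.ta.mul_left h.fa).mul_left h.za).eq, mul_assoc _ h.a, e]
  simp only [mul_assoc, h.za.eq]
  rw [← mul_assoc h.a, h.aa, one_mul]

theorem ez (h : RW G) : Commute (cn h.t h.m) h.z := by
  rw [h.tm]
  exact (((comm_z h h.ta h.tb).mul_left (comm_z h h.fa h.fb)).mul_left (Commute.refl _)).mul_left h.zb.symm

theorem rl (h : RW G) : Rl (cn h.t h.m) h.a h.m where
  ee := by simp [cn, mul_assoc, ← mul_assoc h.t, h.tt]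
  aa := h.aa
  mm := h.mm
  ea := by rw [aea]; exact (Commute.refl _).mul_right (ez h)
  em := by
    rw [mm_cn h.mm, h.tm]
    exact (((Commute.refl _).mul_left h.tf.symm).mul_left (comm_z h h.ta h.tb).symm).mul_left h.tb.symm
  am := by rw [mm_cn h.mm]; exact h.ta.symm
  aa' := cn_m h.mm ▸ h.aa'

theorem b3 (hk : KitStmt.{u}) : B3Stmt.{u} := by
  intro G _ _ h
  have k := hk G h.toHyp
  have : Fact (Nat.Prime 2) := ⟨Nat.prime_two⟩
  have r := rl h
  have := h.Xn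
  obtain ⟨ψ, ψe, ψa, ψm, ψQ, ψi, ψX⟩ : ∃ ψ : W →* G, ψ we = cn h.t h.m ∧ ψ wa = h.a ∧ ψ wm = h.m ∧
      (cn h.t h.m ∈ h.Q → h.a ∈ h.Q → h.m ∈ h.Q → ∀ w, ψ w ∈ h.Q) ∧
      (ψ wz * ψ wf ≠ 1 → Function.Injective ψ) ∧ (cn h.t h.m ∉ h.X → ∀ w, ψ w ∈ h.X ↔ Ev w) :=
    ⟨r.ψ, r.ψ_e, r.ψ_a, r.ψ_m, r.ψ_mem, fun e => r.ψ_inj (by
      simpa only [wf, wz, map_mul, r.ψ_e, r.ψ_a, r.ψ_m] using e), fun e w =>
      (QuotientGroup.eq_one_iff _).symm.trans (r.ψ_ev (QuotientGroup.mk' h.X)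
        (mt (QuotientGroup.eq_one_iff _).1 e) ((QuotientGroup.eq_one_iff _).2 k.aX.1)
        ((QuotientGroup.eq_one_iff _).2 h.mX) w)⟩
  have pt : ψ wt = h.t := by simp only [wt, map_mul, ψe, ψm, mm_cn h.mm]
  have pz : ψ wz = h.z := by
    simp only [wz, map_mul, ψe, ψa, aea]
    rw [← mul_assoc, r.ee, one_mul]
  have pf : ψ wf = h.f := by rw [wf, map_mul, map_mul, pz, ψm, ← h.fm, mm_cn h.mm]
  have pb : ψ wb = h.b := by
    rw [wb, map_mul, map_inv, map_mul, map_mul, pt, pf, pz, ψe, h.tm, inv_mul_cancel_left]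
  have pd : ψ wd = h.a * cn h.a h.m := by simp only [wd, map_mul, ψa, ψm, cn_m h.mm]
  have fz : h.z * h.f ≠ 1 := fun e => h.fL (by
    rw [← eq_inv_of_mul_eq_one_right e |>.symm]
    have : h.z = h.a⁻¹ * (h.b⁻¹ * h.a * h.b) := by rw [← cn, h.ab, inv_mul_cancel_left]
    have ma : h.a ∈ h.L := (h.LiT.ge (subset_closure (by simp))).1
    have mb : h.b ∈ h.L := (h.LiT.ge (subset_closure (by simp))).1
    exact inv_mem (this ▸ mul_mem (inv_mem ma) (mul_mem (mul_mem (inv_mem mb) ma) mb)))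
  have inj : Function.Injective ψ := ψi (by rwa [pz, pf])
  have m0 : ∀ x ∈ ({h.t, h.f, h.a, h.b} : Set G), x ∈ h.Q := fun x hx => h.T0Q (subset_closure hx)
  have hQ : ψ.range = h.Q := by
    refine eq_of_le_of_card_ge ?_ ?_
    · rintro _ ⟨w, rfl⟩
      exact ψQ (mul_mem (mul_mem (inv_mem h.mQ) (m0 _ (by simp))) h.mQ) (m0 _ (by simp)) h.mQ w
    · rw [h.cQ, ← Nat.card_congr (MonoidHom.ofInjective inj).toEquiv, card_W]; rfl
  have hT : h.T = h.T0 := (k.cT.resolve_right fun e => e.1 h.e1).2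
  have cj : ∀ {x y g : G}, cn x g = y → IsConj h.t y → IsConj h.t x := fun e c =>
    c.trans (e ▸ isConj_cn _ _).symm
  have n1 : ¬ IsConj h.t (h.f * h.z) := fun c => by
    obtain ⟨g, -, hg⟩ := k.into _ h.Q c h.sylQ.isPGroup (by
      rw [← hQ, ← pf, ← pz, ← map_mul]
      rintro _ ⟨w, rfl⟩
      rw [mem_centralizer_singleton_iff, ← map_mul, ← map_mul,
        (by decide +kernel : ∀ w : W, w * (wf * wz) = wf * wz * w)])
    have := Nat.card_le_card_of_injective (fun x : h.Q => (⟨_, hg x x.2⟩ : h.T)) fun x y e =>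
      Subtype.ext (by simpa [cn] using e)
    rw [h.cQ, hT, k.cT0] at this
    omega
  have n2 : ¬ IsConj h.t (h.t * h.z) := fun c => by
    rcases h.DZ _ (mul_mem (subset_closure (by simp)) (subset_closure (by simp))) c with e | e
    · exact h.z1 (mul_eq_left.1 e)
    · exact fz (by rw [← mul_left_cancel e, h.zz])
  have cr : ∀ {x : G}, Commute h.r x → cn (x * h.z) h.r = x * h.a := fun {x} c => by
    rw [← h.zr, cn, cn, ← mul_assoc, c.inv_left.eq]; group
  have cls : ∀ w, IsConj h.t (ψ w) → ∃ u, ∃ v ∈ [wt, wd, wm], w = u * v * u⁻¹ ∧ IsConj h.t (ψ v) :=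
    fun w c => by
      obtain ⟨u, v, hv, e⟩ := classes w (inj (by
        obtain ⟨g, hg⟩ := isConj_iff.1 c
        rw [map_mul, ← hg, conj_mul, h.tt, map_one, mul_one, mul_inv_cancel]))
      have c' : IsConj h.t (ψ v) := c.trans (isConj_iff.2 ⟨ψ u, by rw [e]; simp⟩).symm
      refine ⟨u, v, ?_, e, c'⟩
      simp only [List.mem_cons, List.not_mem_nil, or_false] at hv ⊢
      rcases hv with rfl | rfl | rfl | rfl | rfl | rfl | rfl | rfl | hv
      · exact absurd (isConj_one_left.1 (map_one ψ ▸ c')) h.t1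
      · exact absurd (pz ▸ c') k.zD
      · exact absurd (cj h.zs (pb ▸ c')) k.zD
      · exact absurd (cj h.zr (ψa ▸ c')) k.zD
      · exact absurd (by rwa [map_mul, pf, pz] at c') n1
      · exact absurd (cj (cr h.rf) (by rwa [map_mul, pf, ψa] at c')) n1
      · exact absurd (by rwa [map_mul, pt, pz] at c') n2
      · exact absurd (cj (cr h.rt) (by rwa [map_mul, pt, ψa] at c')) n2
      · exact hv
  have n3 : ¬ IsConj h.t (ψ wd) := fun c => by
    obtain ⟨g, h1, hg⟩ := k.into _ (h.Q ⊓ centralizer {ψ wd}) c h.sylQ.isPGroup.to_inf_left inf_le_right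
    have key : ∀ u : W, u * wd * u⁻¹ * wd = wd * (u * wd * u⁻¹) →
        ∃ w ∈ [wt, wt * wf, we, we * wz], ψ w = cn (ψ (u * wd * u⁻¹)) g := fun u hu => by
      have h2 := hg (ψ (u * wd * u⁻¹)) ⟨hQ ▸ ⟨_, rfl⟩, mem_centralizer_singleton_iff.2 (by
        rw [← map_mul, hu, map_mul])⟩
      obtain ⟨w, hw⟩ := hQ.ge (h.T0Q (hT ▸ h2))
      obtain ⟨u', v, hv, rfl, -⟩ := cls w (hw ▸ (c.trans (isConj_iff.2 ⟨ψ u, by simp⟩)).trans
        (isConj_cn _ g))
      refine ⟨_, om_of u' v hv (inj ?_), hw⟩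
      rw [map_mul, map_mul ψ wt, hw, pt]
      exact mem_centralizer_singleton_iff.1 (h.syl.le h2)
    obtain ⟨x, x1, x2⟩ := key we (by decide)
    obtain ⟨y, y1, y2⟩ := key wt (by decide)
    obtain ⟨z, z1, z2⟩ := key (we * wt) (by decide)
    have ci : ∀ {v v' : W}, cn (ψ v) g = cn (ψ v') g → v = v' := fun e => inj (by simpa [cn] using e)
    have e : wt * x * y = z := inj (by
      rw [map_mul, map_mul, pt, ← h1, x2, y2, z2, (by decide : we * wt * wd * (we * wt)⁻¹ =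
        wd * (we * wd * we⁻¹) * (wt * wd * wt⁻¹)), map_mul ψ (wd * _), map_mul ψ wd]
      simp [cn, mul_assoc])
    rcases om_three x x1 y y1 (e ▸ z1) with rfl | rfl | rfl
    · exact absurd (ci (h1.trans (pt.symm.trans x2))) (by decide)
    · exact absurd (ci (h1.trans (pt.symm.trans y2))) (by decide)
    · exact absurd (ci (x2.symm.trans y2)) (by decide)
  have tX : h.t ∉ h.X := (k.trT h.Q (K.map ψ) h.sylQ (hQ ▸ map_le_range _ _) (by
    rw [← hQ, MonoidHom.range_eq_map, relIndex_map_map_of_injective _ _ inj, relIndex_top_right, index_K])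
    fun g _ ⟨w, hw, e⟩ => by
      obtain ⟨u, v, hv, rfl, c⟩ := cls w (e ▸ isConj_cn _ g)
      simp only [List.mem_cons, List.not_mem_nil, or_false] at hv
      rcases hv with rfl | rfl | rfl
      · exact (by decide +kernel : ∀ u, ¬ Ev (u * wt * u⁻¹)) u (mem_K.1 hw)
      · exact n3 c
      · exact n3 (pd ▸ (ψm ▸ c).trans h.am.symm)).1
  refine ⟨tX, fun S P => ?_⟩
  have hN : h.Q ⊓ h.X = K.map ψ := by
    have ev := ψX fun e => tX (by simpa [cn, mul_assoc] using h.Xn.conj_mem _ e h.m)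
    ext x
    refine ⟨fun ⟨a, b⟩ => ?_, ?_⟩
    · obtain ⟨w, rfl⟩ := hQ.ge a
      exact ⟨w, mem_K.2 ((ev w).1 b), rfl⟩
    · rintro ⟨w, hw, rfl⟩
      exact ⟨hQ.le ⟨w, rfl⟩, (ev w).2 (mem_K.1 hw)⟩
  obtain ⟨e⟩ := K_iso P
  exact ⟨((Sylow.equiv S (k.sylX _ h.sylQ).toSylow).trans ((subgroupOfEquivOfLe inf_le_right).trans
    ((MulEquiv.subgroupCongr hN).trans (K.equivMapOfInjective _ inj).symm))).trans e⟩

end Cfsg.Agent.H66.N7W
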