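import Cfsg.Agent.H71.P3Defs

/-!
# Orbits of the symplectic group on points, lines and flags
-/

set_option autoImplicit false

namespace Cfsg.Agent.H66.P3Oa

open Cfsg Module Submodule Cfsg.Agent.H27 Cfsg.Agent.H71.P3
open scoped Pointwise

theorem col_of_nf {G A B : Type} [Group G] [MulAction G A] [MulAction G B] {m : ℕ}
    (NF : Fin m → A → B → Prop) (ex : ∀ a b, ∃ i, NF i a b)
    (tr : ∀ i a b a' b', NF i a b → NF i a' b' → ∃ g : G, g • a = a' ∧ g • b = b') :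
    Col G (fun (_ : A) (_ : B) => True) m := by
  choose c hc using ex
  exact ⟨c, fun a b a' b' _ _ e => tr _ a b a' b' (hc a b) (e ▸ hc a' b')⟩

variable {F V : Type} [Field F] [AddCommGroup V] [Module F V] [FiniteDimensional F V]

theorem pt_eq {x : Submodule F V} (h : dm x = 1) {e : V} (he : e ∈ x) (e0 : e ≠ 0) : x = F ∙ e :=
  (eq_of_le_of_finrank_eq ((span_singleton_le_iff_mem e x).2 he)
    (by rw [finrank_span_singleton e0]; exact h.symm)).symm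

theorem pt_ex {x : Submodule F V} (h : dm x = 1) : ∃ e, e ≠ 0 ∧ x = F ∙ e := by
  obtain ⟨e, he, e0⟩ := exists_mem_ne_zero_of_ne_bot (p := x) (by
    rintro rfl
    simp [dm] at h)
  exact ⟨e, e0, pt_eq h he e0⟩

omit [FiniteDimensional F V] in
theorem li2 {e f : V} (e0 : e ≠ 0) (h : f ∉ F ∙ e) : LinearIndependent F ![e, f] :=
  (LinearIndependent.pair_iff' e0).2 fun a ha => h (mem_span_singleton.2 ⟨a, ha⟩)

omit [FiniteDimensional F V] in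
theorem dm_pair {e f : V} (h : LinearIndependent F ![e, f]) : dm (span F {e, f}) = 2 := by
  have := finrank_span_eq_card h
  rwa [show Set.range ![e, f] = {e, f} by ext x; simp [or_comm]] at this

theorem ln_eq {L : Submodule F V} (h : dm L = 2) {e f : V} (he : e ∈ L) (hf : f ∈ L)
    (li : LinearIndependent F ![e, f]) : L = span F {e, f} :=
  (eq_of_le_of_finrank_eq (span_le.2 (Set.pair_subset he hf)) ((dm_pair li).trans h.symm)).symm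

variable (S : Sp F V)

theorem w1 {e e' : V} (h : e ≠ 0) (h' : e' ≠ 0) : ∃ g ∈ S.G, g e = e' := by
  obtain ⟨g, -, h1, h2⟩ := witt_family S.nd S.alt ⊤ (fun _ _ => trivial) (x := ![e]) (y := ![e'])
    (linearIndependent_unique_iff.2 h) (linearIndependent_unique_iff.2 h') (fun i j => by
      fin_cases i; fin_cases j; simp [S.alt.self_eq_zero])
  exact ⟨g, h1, h2 0⟩

theorem w2 {e f e' f' : V} (h : LinearIndependent F ![e, f]) (h' : LinearIndependent F ![e', f'])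
    (b : S.B e' f' = S.B e f) : ∃ g ∈ S.G, g e = e' ∧ g f = f' := by
  obtain ⟨g, -, h1, h2⟩ := witt_family S.nd S.alt ⊤ (fun _ _ => trivial) h h' (fun i j => by
    fin_cases i <;> fin_cases j <;> simp [S.alt.self_eq_zero, b, ← S.alt.neg_eq e f,
      ← S.alt.neg_eq e' f'])
  exact ⟨g, h1, h2 0, h2 1⟩

theorem w3 {e f u e' f' u' : V} (h : LinearIndependent F ![e, f]) (hu : u ∉ span F {e, f})
    (h' : LinearIndependent F ![e', f']) (hu' : u' ∉ span F {e', f'}) (b : S.B e' f' = S.B e f)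
    (b1 : S.B u' e' = S.B u e) (b2 : S.B u' f' = S.B u f) :
    ∃ g ∈ S.G, g e = e' ∧ g f = f' ∧ g u = u' := by
  have k : ∀ {e f u : V}, LinearIndependent F ![e, f] → u ∉ span F {e, f} →
      LinearIndependent F ![u, e, f] := fun {e f u} h hu =>
    linearIndependent_finCons.2 ⟨h, by
      rwa [show Set.range ![e, f] = {e, f} by ext x; simp [or_comm]]⟩
  obtain ⟨g, -, h1, h2⟩ := witt_family S.nd S.alt ⊤ (fun _ _ => trivial) (k h hu) (k h' hu')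
    (fun i j => by
      fin_cases i <;> fin_cases j <;> simp [S.alt.self_eq_zero, b, b1, b2, ← S.alt.neg_eq e f,
        ← S.alt.neg_eq e' f', ← S.alt.neg_eq u e, ← S.alt.neg_eq u' e', ← S.alt.neg_eq u f,
        ← S.alt.neg_eq u' f'])
  exact ⟨g, h1, h2 1, h2 2, h2 0⟩

/-- an adapted basis of a flag -/
structure Ad (e f : V) (x L : Submodule F V) : Prop where
  li : LinearIndependent F ![e, f]
  b : S.B e f = 0
  x : x = F ∙ e
  L : L = span F {e, f}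

variable {S}

theorem ad_of {x L : Submodule F V} (h : S.IsFl x L) {e f : V} (e0 : e ≠ 0) (hx : x = F ∙ e)
    (hf : f ∈ L) (hf' : f ∉ x) : Ad S e f x L :=
  have he : e ∈ L := h.2.2 (hx ▸ mem_span_singleton_self e)
  ⟨li2 e0 (hx ▸ hf'), h.2.1.2 e he f hf, hx, ln_eq h.2.1.1 he hf (li2 e0 (hx ▸ hf'))⟩

theorem fl_ex {x L : Submodule F V} (h : S.IsFl x L) : ∃ e f, Ad S e f x L := by
  obtain ⟨e, e0, hx⟩ := pt_ex h.1
  obtain ⟨f, hf, hf'⟩ := SetLike.exists_of_lt (lt_of_le_of_ne h.2.2 fun e => by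
    have h1 := h.1
    rw [e, h.2.1.1] at h1
    omega)
  exact ⟨e, f, ad_of h e0 hx hf hf'⟩

omit [FiniteDimensional F V] in
theorem ln_ex {L : Submodule F V} (h : S.IsLn L) : ∃ x, S.IsFl x L := by
  obtain ⟨e, he, e0⟩ := exists_mem_ne_zero_of_ne_bot (p := L) (by
    rintro rfl
    simpa [dm] using h.1)
  exact ⟨F ∙ e, finrank_span_singleton e0, h, (span_singleton_le_iff_mem e L).2 he⟩

omit [FiniteDimensional F V] in
theorem Ad.swap {e f : V} {x L : Submodule F V} (h : Ad S e f x L) : Ad S f e (F ∙ f) L :=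
  ⟨LinearIndependent.pair_symm_iff.1 h.li, S.alt.isRefl _ _ h.b, rfl, h.L.trans (by
    rw [Set.pair_comm])⟩

omit [FiniteDimensional F V] in
theorem Ad.smul {e f e' f' : V} {x L x' L' : Submodule F V} (h : Ad S e f x L)
    (h' : Ad S e' f' x' L') {g : V ≃ₗ[F] V} (h1 : g e = e') (h2 : g f = f') :
    g • x = x' ∧ g • L = L' :=
  ⟨by rw [h.x, h'.x, H71.P3.smul_span, h1], by rw [h.L, h'.L, smul_span_pair, h1, h2]⟩

variable (S)

/-- the position of a point with respect to a flag -/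
def NF (i : Fin 5) (y x L : Submodule F V) : Prop := ∃ e f u, Ad S e f x L ∧ y = F ∙ u ∧
  (i = 0 ∧ u = e ∨ i = 1 ∧ u = f ∨ u ∉ span F {e, f} ∧ (i = 2 ∧ S.B u e = 0 ∧ S.B u f = 0 ∨
    i = 3 ∧ S.B u e = 0 ∧ S.B u f = 1 ∨ i = 4 ∧ S.B u e = 1 ∧ S.B u f = 0))

variable {S}

theorem nf_ex {y x L : Submodule F V} (hy : dm y = 1) (h : S.IsFl x L) : ∃ i, NF S i y x L := by
  obtain ⟨u, u0, rfl⟩ := pt_ex hy
  obtain ⟨e, f, a⟩ := fl_ex h
  have e0 : e ≠ 0 := a.li.ne_zero 0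
  by_cases h1 : u ∈ x
  · exact ⟨0, e, f, e, a, (pt_eq h.1 h1 u0).symm.trans a.x, Or.inl ⟨rfl, rfl⟩⟩
  by_cases h2 : u ∈ L
  · exact ⟨1, e, u, u, ad_of h e0 a.x h2 h1, rfl, Or.inr (Or.inl ⟨rfl, rfl⟩)⟩
  have sc : ∀ c : F, c ≠ 0 → (F ∙ u) = F ∙ (c⁻¹ • u) ∧ c⁻¹ • u ∉ L := fun c hc =>
    ⟨(span_singleton_smul_eq (inv_ne_zero hc).isUnit u).symm,
      fun e => h2 ((smul_mem_iff L (inv_ne_zero hc)).1 e)⟩
  by_cases h3 : S.B u e = 0
  · by_cases h4 : S.B u f = 0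
    · exact ⟨2, e, f, u, a, rfl, Or.inr (Or.inr ⟨a.L ▸ h2, Or.inl ⟨rfl, h3, h4⟩⟩)⟩
    · exact ⟨3, e, f, _, a, (sc _ h4).1, Or.inr (Or.inr ⟨a.L ▸ (sc _ h4).2,
        Or.inr (Or.inl ⟨rfl, by simp [h3], by simp [h4]⟩)⟩)⟩
  · have he : e ∈ x := a.x ▸ mem_span_singleton_self e
    have a' : Ad S e (f - (S.B u f / S.B u e) • e) x L := ad_of h e0 a.x
      (sub_mem (a.L ▸ subset_span (by simp)) (smul_mem _ _ (h.2.2 he))) fun e1 => by
        have := add_mem e1 (smul_mem x (S.B u f / S.B u e) he)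
        rw [sub_add_cancel, a.x] at this
        obtain ⟨c, hc⟩ := mem_span_singleton.1 this
        exact (LinearIndependent.pair_iff' e0).1 a.li c hc
    exact ⟨4, e, _, _, a', (sc _ h3).1, Or.inr (Or.inr ⟨a'.L ▸ (sc _ h3).2,
      Or.inr (Or.inr ⟨rfl, by simp [h3], by simp [h3]⟩)⟩)⟩

theorem nf_tr {i : Fin 5} {y x L y' x' L' : Submodule F V} (h : NF S i y x L)
    (h' : NF S i y' x' L') : ∃ g ∈ S.G, g • y = y' ∧ g • x = x' ∧ g • L = L' := by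
  obtain ⟨e, f, u, a, rfl, h⟩ := h
  obtain ⟨e', f', u', a', rfl, h'⟩ := h'
  suffices ∃ g ∈ S.G, g e = e' ∧ g f = f' ∧ g u = u' by
    obtain ⟨g, hg, h1, h2, h3⟩ := this
    exact ⟨g, hg, by rw [H71.P3.smul_span, h3], a.smul a' h1 h2⟩
  obtain ⟨g, hg, h1, h2⟩ := w2 S a.li a'.li (a'.b.trans a.b.symm)
  have k := fun hu hu' => w3 S (u := u) (u' := u') a.li hu a'.li hu' (a'.b.trans a.b.symm)
  rcases h with ⟨rfl, rfl⟩ | ⟨rfl, rfl⟩ | ⟨hu, ⟨rfl, b⟩ | ⟨rfl, b⟩ | ⟨rfl, b⟩⟩ <;>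
    simp only [Fin.reduceEq, false_and, false_or, or_false, and_false, true_and] at h'
  · exact ⟨g, hg, h1, h2, h' ▸ h1⟩
  · exact ⟨g, hg, h1, h2, h' ▸ h2⟩
  all_goals exact k hu h'.1 (h'.2.1.trans b.1.symm) (h'.2.2.trans b.2.symm)

theorem col_fl : Col S.G (fun (_ : S.Pt) (_ : S.Fl) => True) 5 :=
  col_of_nf (fun i y a => NF S i y.1 a.1.1 a.1.2) (fun y a => nf_ex y.2 a.2)
    fun _ _ _ _ _ h h' => by
      obtain ⟨g, hg, h1, h2, h3⟩ := nf_tr h h'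
      exact ⟨⟨g, hg⟩, Subtype.ext h1, Subtype.ext (Prod.ext h2 h3)⟩

theorem col_ln : Col S.G (fun (_ : S.Pt) (_ : S.Ln) => True) 3 :=
  col_of_nf (fun i y L => ∃ x, NF S (![0, 2, 3] i) y.1 x L.1) (fun y L => by
    obtain ⟨x, hx⟩ := ln_ex L.2
    obtain ⟨i, e, f, u, a, hy, h⟩ := nf_ex y.2 hx
    rcases h with ⟨-, rfl⟩ | ⟨-, rfl⟩ | ⟨hu, ⟨-, b⟩ | ⟨-, b⟩ | ⟨-, b⟩⟩
    · exact ⟨0, x, u, f, u, a, hy, Or.inl ⟨rfl, rfl⟩⟩
    · exact ⟨0, _, u, e, u, a.swap, hy, Or.inl ⟨rfl, rfl⟩⟩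
    · exact ⟨1, x, e, f, u, a, hy, Or.inr (Or.inr ⟨hu, Or.inl ⟨rfl, b⟩⟩)⟩
    · exact ⟨2, x, e, f, u, a, hy, Or.inr (Or.inr ⟨hu, Or.inr (Or.inl ⟨rfl, b⟩)⟩)⟩
    · exact ⟨2, _, f, e, u, a.swap, hy, Or.inr (Or.inr ⟨Set.pair_comm e f ▸ hu,
        Or.inr (Or.inl ⟨rfl, b.2, b.1⟩)⟩)⟩)
    fun _ _ _ _ _ ⟨_, h⟩ ⟨_, h'⟩ => by
      obtain ⟨g, hg, h1, -, h3⟩ := nf_tr h h'
      exact ⟨⟨g, hg⟩, Subtype.ext h1, Subtype.ext h3⟩

theorem tr_fl {x L x' L' : Submodule F V} (h : S.IsFl x L) (h' : S.IsFl x' L') :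
    ∃ g ∈ S.G, g • x = x' ∧ g • L = L' := by
  obtain ⟨e, f, a⟩ := fl_ex h
  obtain ⟨e', f', a'⟩ := fl_ex h'
  obtain ⟨g, hg, h1, h2⟩ := w2 S a.li a'.li (a'.b.trans a.b.symm)
  exact ⟨g, hg, a.smul a' h1 h2⟩

variable (S)

theorem ex_pair : ∃ e f, LinearIndependent F ![e, f] ∧ S.B e f = 0 := by
  have hk := S.hk
  have hd := S.dim
  have : Nontrivial V := nontrivial_of_finrank_pos (R := F) (by omega)
  obtain ⟨e, e0⟩ := exists_ne (0 : V)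
  obtain ⟨f, h1, h2⟩ := SetLike.not_le_iff_exists.1 (show ¬ LinearMap.ker (S.B e) ≤ F ∙ e from
    fun h => by
      have h1 := finrank_mono h
      have h2 := LinearMap.finrank_range_add_finrank_ker (S.B e)
      have h3 := finrank_le (LinearMap.range (S.B e))
      rw [finrank_span_singleton e0] at h1
      rw [finrank_self] at h3
      omega)
  exact ⟨e, f, li2 e0 h2, h1⟩

/-- perpendicular points -/
def Pp (a : S.Pt × S.Pt) : Prop := ∀ u ∈ a.1.1, ∀ v ∈ a.2.1, S.B u v = 0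

open Classical in
/-- the type of a pair of points -/
noncomputable def ι (a : S.Pt × S.Pt) : Fin 3 := if a.1 = a.2 then 0 else if Pp S a then 1 else 2

omit [FiniteDimensional F V] in
theorem pp_iff {a : S.Pt × S.Pt} {e f : V} (h1 : a.1.1 = F ∙ e) (h2 : a.2.1 = F ∙ f) :
    Pp S a ↔ S.B e f = 0 := by
  refine ⟨fun h => h e (h1 ▸ mem_span_singleton_self e) f (h2 ▸ mem_span_singleton_self f),
    fun h u hu v hv => ?_⟩
  obtain ⟨c, rfl⟩ := mem_span_singleton.1 (h1 ▸ hu)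
  obtain ⟨d, rfl⟩ := mem_span_singleton.1 (h2 ▸ hv)
  simp [h]

theorem ι_smul (g : S.G) (a : S.Pt × S.Pt) : ι S (g • a) = ι S a := by
  obtain ⟨e, -, h1⟩ := pt_ex a.1.2
  obtain ⟨f, -, h2⟩ := pt_ex a.2.2
  have : Pp S (g • a) ↔ Pp S a := by
    rw [pp_iff S h1 h2, pp_iff S (a := g • a) (e := g.1 e) (f := g.1 f)
      (by rw [← H71.P3.smul_span, ← h1]; rfl) (by rw [← H71.P3.smul_span, ← h2]; rfl), g.2]
  have e1 : (g • a).1 = (g • a).2 ↔ a.1 = a.2 := smul_left_cancel_iff g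
  unfold ι
  rw [propext e1, propext this]

theorem ι_tr {a b : S.Pt × S.Pt} (h : ι S a = ι S b) : ∃ g : S.G, g • b = a := by
  have k : ∀ a : S.Pt × S.Pt, ∃ e f, e ≠ 0 ∧ a.1.1 = F ∙ e ∧ a.2.1 = F ∙ f ∧
      (ι S a = 0 ∧ f = e ∨ f ∉ (F ∙ e) ∧ (ι S a = 1 ∧ S.B e f = 0 ∨ ι S a = 2 ∧ S.B e f = 1)) :=
    fun a => by
      obtain ⟨e, e0, h1⟩ := pt_ex a.1.2
      obtain ⟨f, f0, h2⟩ := pt_ex a.2.2
      by_cases c1 : a.1 = a.2
      · exact ⟨e, e, e0, h1, c1 ▸ h1, Or.inl ⟨if_pos c1, rfl⟩⟩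
      have n : f ∉ (F ∙ e) := fun hf => c1 (Subtype.ext ((pt_eq a.1.2 (h1 ▸ hf) f0).trans h2.symm))
      by_cases c2 : S.B e f = 0
      · exact ⟨e, f, e0, h1, h2, Or.inr ⟨n, Or.inl ⟨(if_neg c1).trans
          (if_pos ((pp_iff S h1 h2).2 c2)), c2⟩⟩⟩
      · exact ⟨e, (S.B e f)⁻¹ • f, e0, h1,
          h2.trans (span_singleton_smul_eq (inv_ne_zero c2).isUnit f).symm,
          Or.inr ⟨fun hf => n ((smul_mem_iff _ (inv_ne_zero c2)).1 hf), Or.inr ⟨(if_neg c1).trans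
            (if_neg fun h => c2 ((pp_iff S h1 h2).1 h)), by simp [c2]⟩⟩⟩
  obtain ⟨e, f, e0, h1, h2, h3⟩ := k b
  obtain ⟨e', f', e0', h1', h2', h3'⟩ := k a
  suffices ∃ g ∈ S.G, g e = e' ∧ g f = f' by
    obtain ⟨g, hg, c1, c2⟩ := this
    refine ⟨⟨g, hg⟩, Prod.ext (Subtype.ext ?_) (Subtype.ext ?_)⟩
    · change g • b.1.1 = _
      rw [h1, h1', H71.P3.smul_span, c1]
    · change g • b.2.1 = _
      rw [h2, h2', H71.P3.smul_span, c2]
  rw [h] at h3'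
  rcases h3 with ⟨c, rfl⟩ | ⟨n, ⟨c, d⟩ | ⟨c, d⟩⟩ <;>
    simp only [c, Fin.reduceEq, false_and, false_or, or_false, and_false, true_and] at h3'
  · obtain ⟨g, hg, c1⟩ := w1 S e0 e0'
    exact ⟨g, hg, c1, h3' ▸ c1⟩
  all_goals exact w2 S (li2 e0 n) (li2 e0' h3'.1) (h3'.2.trans d.symm)

theorem ι_surj : Function.Surjective (ι S) := by
  obtain ⟨e, f, li, b⟩ := ex_pair S
  have e0 : e ≠ 0 := li.ne_zero 0
  have f0 : f ≠ 0 := li.ne_zero 1
  obtain ⟨v, hv⟩ : ∃ v, S.B e v ≠ 0 := by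
    by_contra! h
    exact e0 (S.nd.1 e h)
  have v0 : v ≠ 0 := by
    rintro rfl
    simp at hv
  let p : ∀ u : V, u ≠ 0 → S.Pt := fun u h => ⟨F ∙ u, finrank_span_singleton h⟩
  have n : ∀ u h, (∀ c : F, c • e ≠ u) → p e e0 ≠ p u h := fun u h hu e1 => by
    have : u ∈ (p e e0).1 := e1 ▸ mem_span_singleton_self u
    obtain ⟨c, hc⟩ := mem_span_singleton.1 this
    exact hu c hc
  intro i
  fin_cases i
  · exact ⟨(p e e0, p e e0), if_pos rfl⟩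
  · exact ⟨(p e e0, p f f0), (if_neg (n f f0 ((LinearIndependent.pair_iff' e0).1 li))).trans
      (if_pos ((pp_iff S rfl rfl).2 b))⟩
  · exact ⟨(p e e0, p v v0), (if_neg (n v v0 fun c hc => hv (by
      simp [← hc, S.alt.self_eq_zero]))).trans (if_neg fun h => hv ((pp_iff S rfl rfl).1 h))⟩

theorem card_pp : Nat.card (MulAction.orbitRel.Quotient S.G (S.Pt × S.Pt)) = 3 := by
  have e : MulAction.orbitRel S.G (S.Pt × S.Pt) = Setoid.ker (ι S) := Setoid.ext fun a b =>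
    ⟨fun ⟨g, hg⟩ => hg ▸ ι_smul S g b, fun h => ι_tr S h⟩
  rw [MulAction.orbitRel.Quotient, e,
    Nat.card_congr (Setoid.quotientKerEquivOfSurjective _ (ι_surj S)), Nat.card_fin]

/-- **OA** -/
theorem oa : OaStmt := by
  intro F V _ _ _ _ _ S
  refine ⟨⟨fun x y => ?_⟩, ⟨fun L L' => ?_⟩, ⟨fun a b => ?_⟩, ?_, card_pp S, col_ln, col_fl⟩
  · obtain ⟨e, e0, h1⟩ := pt_ex x.2
    obtain ⟨f, f0, h2⟩ := pt_ex y.2
    obtain ⟨g, hg, c⟩ := w1 S e0 f0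
    exact ⟨⟨g, hg⟩, Subtype.ext (show g • x.1 = y.1 by rw [h1, h2, H71.P3.smul_span, c])⟩
  · obtain ⟨x, hx⟩ := ln_ex L.2
    obtain ⟨x', hx'⟩ := ln_ex L'.2
    obtain ⟨g, hg, -, c⟩ := tr_fl hx hx'
    exact ⟨⟨g, hg⟩, Subtype.ext c⟩
  · obtain ⟨g, hg, c1, c2⟩ := tr_fl a.2 b.2
    exact ⟨⟨g, hg⟩, Subtype.ext (Prod.ext c1 c2)⟩
  · obtain ⟨e, f, li, b⟩ := ex_pair S
    refine ⟨⟨(F ∙ e, span F {e, f}), finrank_span_singleton (li.ne_zero 0),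
      ⟨dm_pair li, fun u hu v hv => ?_⟩, span_mono (by simp)⟩⟩
    obtain ⟨c, d, rfl⟩ := mem_span_pair.1 hu
    obtain ⟨c', d', rfl⟩ := mem_span_pair.1 hv
    simp [b, S.alt.self_eq_zero, S.alt.isRefl _ _ b]

end Cfsg.Agent.H66.P3Oa
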