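import Cfsg.Agent.H63.PSKit

/-! S3019: conjugates of `A` by good `p'`-elements. -/

set_option autoImplicit false

namespace Cfsg.Agent.H66.PsK

open Cfsg Subgroup Cfsg.Agent.H63.PS
open scoped Pointwise

universe u

variable {p : ℕ} [hp : Fact p.Prime] {G : Type u} [Group G] [Finite G]

omit [Finite G] in
theorem cj {K : Subgroup G} {a k : G} (ha : a ∈ normalizer (K : Set G)) (hk : k ∈ K) :
    a * k * a⁻¹ ∈ K := (mem_normalizer_iff.1 ha k).1 hk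

omit [Finite G] in
theorem dec {A K : Subgroup G} (h : A ≤ normalizer (K : Set G)) {x : G} (hx : x ∈ A ⊔ K) :
    ∃ a ∈ A, ∃ k ∈ K, a * k = x :=
  Set.mem_mul.1 ((coe_mul_of_left_le_normalizer_right A K h).le hx)

theorem syl {A K B : Subgroup G} (hA : IsPGroup p A) (hK : (Nat.card K).Coprime p)
    (h : A ≤ normalizer (K : Set G)) (hB : IsPGroup p B) (le : B ≤ A ⊔ K) :
    ∃ j ∈ K, ∀ b ∈ B, j * b * j⁻¹ ∈ A := by
  obtain ⟨g, hg, e⟩ := (H8.isSylowIn_of_maximal le_sup_left hA fun Q hQ l1 l2 q hq => by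
    obtain ⟨a, ha, k, hk, rfl⟩ := dec h (l1 hq)
    rwa [mem_bot.1 ((H3.inf_eq_bot_of_isPGroup_of_coprime hQ hK).le
      ⟨(mul_mem_cancel_left (l2 ha)).1 hq, hk⟩), mul_one]).exists_conj_le hB le
  obtain ⟨a, ha, k, hk, rfl⟩ := dec h hg
  refine ⟨k, hk, fun b hb => ?_⟩
  simpa [mul_assoc] using mul_mem (mul_mem (inv_mem ha) (e (H8.conj_mem_conj_smul.2 hb))) ha

omit [Finite G] in
theorem pow_mem' {K : Subgroup G} {a k : G} (ha : a ∈ normalizer (K : Set G)) (hk : k ∈ K) (n : ℕ) :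
    (a ^ n)⁻¹ * (a * k) ^ n ∈ K := by
  induction n with
  | zero => simp
  | succ n ih =>
    have : (a ^ (n + 1))⁻¹ * (a * k) ^ (n + 1) = a⁻¹ * ((a ^ n)⁻¹ * (a * k) ^ n) * a⁻¹⁻¹ * k := by
      rw [pow_succ, pow_succ]; group
    rw [this]
    exact mul_mem (cj (inv_mem ha) ih) hk

theorem cop {A K : Subgroup G} (hA : IsPGroup p A) (hK : (Nat.card K).Coprime p) {a k : G} (ha : a ∈ A)
    (hk : k ∈ K) : (orderOf a).Coprime (orderOf k) := by
  obtain ⟨n, hn⟩ := IsPGroup.iff_card.1 hA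
  exact ((hK.symm.pow_left n).coprime_dvd_left (hn ▸ orderOf_dvd_natCard A ha)).coprime_dvd_right
    (orderOf_dvd_natCard K hk)

theorem part {A K : Subgroup G} (hA : IsPGroup p A) (hK : (Nat.card K).Coprime p)
    (h : A ≤ normalizer (K : Set G)) {c k : G} (hc : c ∈ A) (hk : k ∈ K) :
    ∃ s ∈ K, s * c = c * s ∧ IsConj (c * s) (c * k) := by
  have h1 := pow_mem' (h hc) hk (orderOf c)
  rw [pow_orderOf_eq_one, inv_one, one_mul] at h1
  obtain ⟨u, hu⟩ := exists_pow_eq_self_of_coprime (cop hA hK hc h1)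
  have c1 : Commute (c * k) (((c * k) ^ orderOf c) ^ u) := ((Commute.refl _).pow_right _).pow_right _
  have h2 := pow_mem h1 u
  have h3 : (c * k * (((c * k) ^ orderOf c) ^ u)⁻¹) ^ orderOf c = 1 := by
    rw [c1.inv_right.mul_pow, inv_pow, ← pow_mul _ u, mul_comm u, pow_mul, hu, mul_inv_cancel]
  generalize ((c * k) ^ orderOf c) ^ u = y at c1 h2 h3
  have zc := hA.to_le (zpowers_le.2 hc)
  obtain ⟨n, hn⟩ := IsPGroup.iff_card.1 zc
  obtain ⟨m, -, hm⟩ := (Nat.dvd_prime_pow hp.out).1 ((orderOf_dvd_of_pow_eq_one h3).trans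
    ((Nat.card_zpowers c).symm.trans hn).dvd)
  obtain ⟨j, hj, e⟩ := syl zc hK ((zpowers_le.2 hc).trans h)
    (IsPGroup.of_card ((Nat.card_zpowers _).trans hm)) (zpowers_le.2 (by
      rw [mul_assoc]; exact mul_mem_sup (mem_zpowers c) (mul_mem hk (inv_mem h2))))
  have h4 : c⁻¹ * (j * (c * k * y⁻¹) * j⁻¹) = 1 :=
    mem_bot.1 ((H3.inf_eq_bot_of_isPGroup_of_coprime zc hK).le
      (mem_inf.2 ⟨mul_mem (inv_mem (mem_zpowers c)) (e _ (mem_zpowers _)), by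
        simpa [mul_assoc] using mul_mem (mul_mem (mul_mem (cj (inv_mem (h hc)) hj) hk) (inv_mem h2))
          (inv_mem hj)⟩))
  rw [inv_mul_eq_one] at h4
  refine ⟨j * y * j⁻¹, mul_mem (mul_mem hj h2) (inv_mem hj), ?_, isConj_iff.2 ⟨j⁻¹, ?_⟩⟩
  · generalize c * k = x at c1 h4
    rw [h4, conj_mul, conj_mul, (c1.mul_left (Commute.refl y).inv_left).eq]
  · generalize c * k = x at h4
    rw [h4]; group

theorem nm {A J : Subgroup G} (hA : IsPGroup p A) (hJ : (Nat.card J).Coprime p)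
    (h : A ≤ normalizer (J : Set G)) {s : G} (l : ∀ a ∈ A, s * a * s⁻¹ ∈ A ⊔ J) :
    ∃ j ∈ J, j * s ∈ normalizer (A : Set G) := by
  obtain ⟨j, hj, e⟩ := syl hA hJ h (H8.isPGroup_conj_smul hA s) (by
    rintro _ ⟨a, ha, rfl⟩; exact l a ha)
  exact ⟨j, hj, mem_normalizer_fintype fun a ha => by
    simpa [mul_assoc] using e _ (H8.conj_mem_conj_smul.2 ha)⟩

theorem loc {A K O : Subgroup G} (hA : IsPGroup p A) (hK : (Nat.card K).Coprime p)
    (AK : A ≤ normalizer (K : Set G)) (AO : A ≤ normalizer (O : Set G)) {s o : G} (hs : s ∈ K)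
    (ho : o ∈ O) (m : o⁻¹ * s ∈ normalizer (A : Set G)) :
    ∃ j ∈ K ⊓ O, j * s ∈ normalizer (A : Set G) := by
  refine nm hA (hK.coprime_dvd_left (card_dvd_of_le inf_le_left))
    ((le_inf AK AO).trans inf_normalizer_le_normalizer_inf) fun a ha => ?_
  have k1 : a⁻¹ * (s * a * s⁻¹) ∈ K := by
    simpa [mul_assoc] using mul_mem (cj (AK (inv_mem ha)) hs) (inv_mem hs)
  have k2 := cj m ha
  have k3 := mul_mem (inv_mem ha) k2
  have k4 := pow_mem' (AO k3) (mul_mem (cj (AO (inv_mem k2)) ho) (inv_mem ho))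
    (orderOf (a⁻¹ * (o⁻¹ * s * a * (o⁻¹ * s)⁻¹)))
  rw [pow_orderOf_eq_one, inv_one, one_mul, show a⁻¹ * (o⁻¹ * s * a * (o⁻¹ * s)⁻¹) *
    ((o⁻¹ * s * a * (o⁻¹ * s)⁻¹)⁻¹ * o * (o⁻¹ * s * a * (o⁻¹ * s)⁻¹)⁻¹⁻¹ * o⁻¹) =
    a⁻¹ * (s * a * s⁻¹) by group] at k4
  simpa using mul_mem_sup ha (mem_inf.2 ⟨k1, H55.mem_of_pow_mem_of_coprime k4 (cop hA hK k3 k1)⟩)

theorem kap (hk : KitStmt.{u}) : KapStmt.{u} := by
  intro p _ G _ _ P z H oz hz L hN g
  have AP := AA_le (P : Subgroup G) z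
  have hA := P.isPGroup'.to_le AP
  have z1 : z ≠ 1 := fun e => (Fact.out : p.Prime).one_lt.ne' (by rw [← oz, e, orderOf_one])
  obtain ⟨K, hK, PK, h1⟩ : ∃ K : Subgroup G, (Nat.card K).Coprime p ∧
      (P : Subgroup G) ≤ normalizer (K : Set G) ∧
      ∀ d ∈ (P : Subgroup G), IsConj z d → ∃ a ∈ AA P z, ∃ o ∈ K, g * d * g⁻¹ = a * o := by
    obtain ⟨S, hS⟩ : ∃ S : Sylow p G, ∀ d ∈ (P : Subgroup G), g * d * g⁻¹ ∈ (S : Subgroup G) :=
      ⟨MulAut.conj g • P, fun d hd => by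
        rw [Sylow.pointwise_smul_def]; exact H8.conj_mem_conj_smul.2 hd⟩
    have a := le_norm_OO (p := p) ((P : Subgroup G) ⊔ (S : Subgroup G))
    have b := (hN _ (H.pair P S) (AP.trans le_sup_left)).1
    exact ⟨OO p ((P : Subgroup G) ⊔ (S : Subgroup G)), OO_coprime _, le_sup_left.trans a, fun d hd c =>
      b _ (mem_sup_right (hS d hd)) (c.trans (isConj_iff.2 ⟨g, rfl⟩))⟩
  have AK := AP.trans PK
  obtain ⟨j, hj, e⟩ := nm hA hK AK (s := g)
    ((closure_le ((AA P z ⊔ K).comap (MulAut.conj g).toMonoidHom)).2 fun d hd => by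
      obtain ⟨a, ha, o, ho, e⟩ := h1 d hd.1 hd.2
      change g * d * g⁻¹ ∈ AA P z ⊔ K
      rw [e]
      exact mul_mem_sup ha ho)
  rw [← inv_inv j] at e
  refine ⟨j⁻¹, e, fun a ha d => ?_, fun a ha b hb n => ?_⟩
  · have : a * (j⁻¹ * a⁻¹ * j⁻¹⁻¹) ∈ K := by
      simpa [mul_assoc] using mul_mem (cj (AK ha) (inv_mem hj)) hj
    exact (Fact.out : p.Prime).coprime_iff_not_dvd.1 hK.symm (d.trans (K.orderOf_dvd_natCard this))
  · have hc := mul_mem ha hb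
    obtain ⟨s, hs, sc, e⟩ := part hA hK AK hc (mul_mem (cj (AK (inv_mem hb)) (inv_mem hj)) hj)
    rw [show a * b * (b⁻¹ * j⁻¹ * b⁻¹⁻¹ * j) = a * (j⁻¹ * b * j⁻¹⁻¹) by group] at e
    suffices h : s ∈ OO p (CC (a * b)) from ⟨s, h, e⟩
    have hs' := H.proper _ (cc_ne_top H.simple H.ncomm n)
    have AH : AA P z ≤ CC (a * b) := fun x hx => mem_centralizer_singleton_iff.2 (L.comm x hx _ hc)
    obtain ⟨o, ho, m⟩ := (hN _ hs' AH).2 s (mem_centralizer_singleton_iff.2 sc)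
    obtain ⟨i, hi, e'⟩ := loc hA hK AK (AH.trans (le_norm_OO (p := p) _)) hs ho m
    have PM := L.nrm P AP
    have h2 := H.proper _ (norm_ne_top H.simple H.ncomm (mem_AA hz.1 (IsConj.refl z)) z1 L.comm)
    have h3 : Nat.card ↥(K ⊓ normalizer (AA P z : Set G)) ∣ Nat.card K := card_dvd_of_le inf_le_left
    have h4 := (hk p G _ h2).1 P _ PM inf_le_right (hK.coprime_dvd_left h3)
      ((le_inf PK (PM.trans le_normalizer)).trans inf_normalizer_le_normalizer_inf)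
    exact (mul_mem_cancel_left (mem_inf.1 hi).2).1 (oM_le hA L.comm hN hc hs'
      (h4 (mem_inf.2 ⟨mul_mem (mem_inf.1 hi).1 hs, e'⟩)))

end Cfsg.Agent.H66.PsK
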