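import Cfsg.Agent.H56.SpDefs
import Cfsg.Agent.H53.LpMm

/-! Project CY, chapter SP, piece AUT: automorphisms of `SL₂(p)` are induced by matrices. -/

set_option autoImplicit false

namespace Cfsg.Agent.H66.SpAut

open Matrix Matrix.SpecialLinearGroup Cfsg.Agent.H53.LpMm

variable {F : Type} [Field F]

theorem tv_pow {i j : Fin 2} (h : i ≠ j) (e : F) (n : ℕ) :
    transvection h e ^ n = transvection h (n * e) := by
  induction n with
  | zero => simp [transvection_coeff_zero]
  | succ n ih => rw [pow_succ, ih, ← transvection_add]; push_cast; rw [add_mul, one_mul]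

theorem mat {r s t r' s' t' a b : F} (hz' : r' * r' + s' * t' = 0)
    (hτ : 1 + (2 * r * r' + s * t' + t * s') = 0) (h1 : r * a + s * b = 0) (h2 : t * a - r * b = 0)
    (ne : a ≠ 0 ∨ b ≠ 0) : ∃ M : Mt F, M.det ≠ 0 ∧
      M * !![1, 1; 0, 1] = !![1 + r, s; t, 1 - r] * M ∧
      M * !![1, 0; -1, 1] = !![1 + r', s'; t', 1 - r'] * M := by
  obtain ⟨c, hc⟩ : ∃ c, c = -(r' * a + s' * b) := ⟨_, rfl⟩
  obtain ⟨d, hd⟩ : ∃ d, d = -(t' * a - r' * b) := ⟨_, rfl⟩
  have k1 : r * c + s * d = a := by
    rw [hc, hd]; linear_combination (-a) * hτ + r' * h1 + s' * h2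
  have k2 : t * c - r * d = b := by
    rw [hc, hd]; linear_combination (-b) * hτ + t' * h1 - r' * h2
  refine ⟨!![a, c; b, d], ?_, ?_, ?_⟩
  · rw [det_fin_two_of]
    intro e
    rcases ne with n | n
    · exact n (mul_self_eq_zero.1 (by linear_combination (-a) * k1 + s * e + c * h1))
    · exact n (mul_self_eq_zero.1 (by linear_combination (-b) * k2 - t * e + d * h2))
  · ext i j
    fin_cases i <;> fin_cases j <;> simp [mul_apply, Fin.sum_univ_two]
    · linear_combination -h1
    · linear_combination -k1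
    · linear_combination -h2
    · linear_combination -k2
  · ext i j
    fin_cases i <;> fin_cases j <;> simp [mul_apply, Fin.sum_univ_two]
    · linear_combination -hc
    · rw [hc, hd]; linear_combination a * hz'
    · linear_combination -hd
    · rw [hc, hd]; linear_combination b * hz'

theorem aut : Cfsg.Agent.H56.Sp.AutStmt := by
  intro F _ _ pp _ φ
  obtain ⟨p, hp, n, p1, e⟩ := FiniteField.card' F
  have n1 : (n : ℕ) = 1 := by rw [e] at pp; exact (Nat.Prime.eq_one_of_pow pp)
  rw [n1, pow_one] at e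
  have := Fact.mk p1
  have nat : ∀ c : F, ∃ m : ℕ, c = m := fun c => by
    obtain ⟨x, rfl⟩ := (ZMod.ringEquivOfPrime F p1 e).surjective c
    exact ⟨x.val, by rw [← map_natCast (ZMod.ringEquivOfPrime F p1 e), ZMod.natCast_zmod_val]⟩
  have h01 : (0 : Fin 2) ≠ 1 := by decide
  have h10 : (1 : Fin 2) ≠ 0 := by decide
  obtain ⟨u, hu⟩ : ∃ u : SL F, u = transvection h01 1 := ⟨_, rfl⟩
  obtain ⟨v, hv⟩ : ∃ v : SL F, v = transvection h10 (-1) := ⟨_, rfl⟩
  have u1 : u.1 = !![1, 1; 0, 1] := by
    rw [hu, transvection_coe]; ext i j; fin_cases i <;> fin_cases j <;> simp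
  have v1 : v.1 = !![1, 0; -1, 1] := by
    rw [hv, transvection_coe]; ext i j; fin_cases i <;> fin_cases j <;> simp
  have pw : ∀ {i j : Fin 2} (h : i ≠ j) (c : F), φ (transvection h c) ^ p = 1 := fun h c => by
    rw [← map_pow, tv_pow, CharP.cast_eq_zero, zero_mul, transvection_coeff_zero, map_one]
  obtain ⟨r, s, t, hz, a⟩ := unip (φ u) (hu ▸ pw h01 1)
  obtain ⟨r', s', t', hz', b⟩ := unip (φ v) (hv ▸ pw h10 (-1))
  have a1 := a 1
  have b1 := b 1
  simp only [zpow_one, Int.cast_one, one_mul] at a1 b1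
  have br : u * v * u = v * u * v := Subtype.ext (by
    show u.1 * v.1 * u.1 = v.1 * u.1 * v.1
    rw [u1, v1]; ext i j; fin_cases i <;> fin_cases j <;> simp [mul_apply, Fin.sum_univ_two])
  have br1 : φ u * φ v * φ u = φ v * φ u * φ v := by simp only [← map_mul, br]
  have br2 : (φ u).1 * (φ v).1 * (φ u).1 = (φ v).1 * (φ u).1 * (φ v).1 := congrArg Subtype.val br1
  rw [a1, b1] at br2
  have e00 := congrFun (congrFun br2 0) 0
  have e01 := congrFun (congrFun br2 0) 1
  have e10 := congrFun (congrFun br2 1) 0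
  simp only [mul_fin_two, of_apply, cons_val', cons_val_zero, cons_val_one, cons_val_fin_one]
    at e00 e01 e10
  have hτ : 1 + (2 * r * r' + s * t' + t * s') = 0 := by
    by_contra c
    have x1 : r - r' = 0 := (mul_eq_zero.1 (by
      linear_combination e00 - hz + hz' + r' * hz - r * hz')).resolve_left c
    have x2 : s - s' = 0 := (mul_eq_zero.1 (by
      linear_combination e01 + s' * hz - s * hz')).resolve_left c
    have x3 : t - t' = 0 := (mul_eq_zero.1 (by
      linear_combination e10 + t' * hz - t * hz')).resolve_left c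
    have : u = v := φ.injective (Subtype.ext (by
      rw [a1, b1, sub_eq_zero.1 x1, sub_eq_zero.1 x2, sub_eq_zero.1 x3]))
    rw [this, v1] at u1
    simpa using congrFun (congrFun u1 0) 1
  obtain ⟨M, hM, m1, m2⟩ : ∃ M : Mt F, M.det ≠ 0 ∧
      M * !![1, 1; 0, 1] = !![1 + r, s; t, 1 - r] * M ∧
      M * !![1, 0; -1, 1] = !![1 + r', s'; t', 1 - r'] * M := by
    by_cases s0 : s = 0
    · refine mat (a := r) (b := t) hz' hτ hz (by ring) ?_
      by_contra c
      push Not at c
      rw [c.1, c.2, s0] at hτ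
      simp at hτ
    · exact mat (a := s) (b := -r) hz' hτ (by ring) (by linear_combination hz) (Or.inl s0)
  rw [← u1, ← a1] at m1
  rw [← v1, ← b1] at m2
  have mul : ∀ f g : SL F, M * f.1 = (φ f).1 * M → M * g.1 = (φ g).1 * M →
      M * (f * g).1 = (φ (f * g)).1 * M := fun f g x y => by
    rw [map_mul]
    show M * (f.1 * g.1) = (φ f).1 * (φ g).1 * M
    rw [← mul_assoc, x, mul_assoc, y, mul_assoc]
  have pow : ∀ f : SL F, M * f.1 = (φ f).1 * M → ∀ m : ℕ, M * (f ^ m).1 = (φ (f ^ m)).1 * M := by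
    intro f x m
    induction m with
    | zero => simp
    | succ m ih => rw [pow_succ]; exact mul _ _ ih x
  refine ⟨M, hM, Matrix.SL2.transvection_induction _ (fun i j h c => ?_) mul⟩
  fin_cases i <;> fin_cases j
  · exact absurd rfl h
  · obtain ⟨m, rfl⟩ := nat c
    have := pow u m1 m
    rwa [hu, tv_pow, mul_one] at this
  · obtain ⟨m, hm⟩ := nat (-c)
    have := pow v m2 m
    rwa [hv, tv_pow, ← hm, mul_neg, mul_one, neg_neg] at this
  · exact absurd rfl h

end Cfsg.Agent.H66.SpAut
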