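import Cfsg.Agent.H58.SWDefs

/-! Project SW, piece ND2. -/

set_option autoImplicit false
set_option linter.unusedVariables false
set_option linter.unusedSectionVars false
open Matrix Cfsg
open scoped commutatorElement

namespace Cfsg.Agent.H66.SwNd2

open Cfsg.Agent.H58.SW

section Abs

variable {G : Type*} [Group G]

/-- a central subgroup of twice odd order with its involution -/
structure ZD (Z : Subgroup G) (m : G) : Prop where
  mZ : m ∈ Z
  mm : m * m = 1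
  cen : ∀ z ∈ Z, ∀ x, Commute z x
  sq1 : ∀ z ∈ Z, z * z = 1 → z = 1 ∨ z = m
  dec : ∀ z ∈ Z, ∃ w ∈ Z, z * (w * w) = 1 ∨ z * (w * w) = m
  ns : ∀ w ∈ Z, w * w ≠ m

variable {Z : Subgroup G} {m : G}

theorem ZD.scale (h : ZD Z m) {x : G} (hx : x * x ∈ Z) :
    ∃ w ∈ Z, x * w * (x * w) = 1 ∨ x * w * (x * w) = m := by
  obtain ⟨w, hw, e⟩ := h.dec _ hx
  exact ⟨w, hw, by rwa [(h.cen w hw x).mul_mul_mul_comm]⟩

theorem ZD.anti (h : ZD Z m) {x y : G} (hx : x * x ∈ Z) (hc : ⁅x, y⁆ ∈ Z) (hn : ¬ Commute x y) :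
    x * y = m * (y * x) := by
  have e : x * y = ⁅x, y⁆ * (y * x) := by rw [commutatorElement_def]; group
  have e2 : ⁅x, y⁆ * ⁅x, y⁆ = 1 := by
    have h1 : x * x * y = ⁅x, y⁆ * ⁅x, y⁆ * (y * (x * x)) :=
      calc x * x * y = x * (x * y) := by group
        _ = (x * ⁅x, y⁆) * (y * x) := by rw [mul_assoc x ⁅x, y⁆, ← e]
        _ = ⁅x, y⁆ * (x * y) * x := by rw [← (h.cen _ hc x).eq]; group
        _ = ⁅x, y⁆ * (⁅x, y⁆ * (y * x)) * x := by rw [← e]
        _ = _ := by simp only [mul_assoc]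
    rw [(h.cen _ hx y).eq] at h1
    exact (mul_eq_right.1 h1.symm)
  rcases h.sq1 _ hc e2 with e3 | e3
  · exact absurd (commutatorElement_eq_one_iff_commute.1 e3) hn
  · rw [e, e3]

theorem ZD.exm (h : ZD Z m) {A : Subgroup G} (hZ : Z ≤ A) (pw : ∀ x ∈ A, x * x ∈ Z)
    (cm : ∀ x ∈ A, ∀ y ∈ A, ⁅x, y⁆ ∈ Z) {x y : G} (hx : x ∈ A) (hy : y ∈ A) (hn : ¬ Commute x y) :
    ∃ z ∈ A, z * z = m := by
  obtain ⟨v, hv, e | e⟩ := h.scale (pw x hx)
  swap
  · exact ⟨_, mul_mem hx (hZ hv), e⟩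
  obtain ⟨w, hw, e' | e'⟩ := h.scale (pw y hy)
  swap
  · exact ⟨_, mul_mem hy (hZ hw), e'⟩
  have hx' := mul_mem hx (hZ hv)
  have hy' := mul_mem hy (hZ hw)
  have hn' : ¬ Commute (y * w) (x * v) := fun hc => hn (by
    have h1 : Commute (y * w * w⁻¹) (x * v) := hc.mul_left (h.cen _ (inv_mem hw) _)
    have h2 : Commute (y * w * w⁻¹) (x * v * v⁻¹) := h1.mul_right (h.cen _ (inv_mem hv) _).symm
    simpa using h2.symm)
  refine ⟨_, mul_mem hx' hy', ?_⟩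
  have h3 := h.anti (pw _ hy') (cm _ hy' _ hx') hn'
  generalize x * v = a at *
  generalize y * w = b at *
  calc a * b * (a * b) = a * (b * a) * b := by group
    _ = (a * m) * a * (b * b) := by rw [h3]; group
    _ = m * (a * a) * (b * b) := by rw [← (h.cen m h.mZ a).eq]; group
    _ = m := by rw [e, e', mul_one, mul_one]

theorem ZD.sc (h : ZD Z m) {B : Subgroup G} (hZ : Z ≤ B) (pw : ∀ x ∈ B, x * x ∈ Z)
    (an : ∀ x ∈ B, x * x = 1 → x ∈ Z) {x : G} (hx : x ∈ B) (hx' : x ∉ Z) :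
    ∃ w ∈ Z, x * w * (x * w) = m := by
  obtain ⟨v, hv, e | e⟩ := h.scale (pw x hx)
  · exact absurd ((mul_mem_cancel_right hv).1 (an _ (mul_mem hx (hZ hv)) e)) hx'
  · exact ⟨v, hv, e⟩

theorem ZD.cm (h : ZD Z m) {B : Subgroup G} (hZ : Z ≤ B) (pw : ∀ x ∈ B, x * x ∈ Z)
    (an : ∀ x ∈ B, x * x = 1 → x ∈ Z) {x y : G} (hx : x ∈ B) (hx' : x ∉ Z) (hy : y ∈ B)
    (hy' : y ∉ Z) (hc : Commute x y) : x * y ∈ Z := by
  obtain ⟨v, hv, e⟩ := h.sc hZ pw an hx hx'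
  obtain ⟨w, hw, e'⟩ := h.sc hZ pw an hy hy'
  have h1 : Commute (y * w) (x * v) :=
    (hc.symm.mul_right (h.cen v hv y).symm).mul_left (h.cen w hw _)
  have h2 := an _ (mul_mem (mul_mem hx (hZ hv)) (mul_mem hy (hZ hw)))
    (by rw [h1.mul_mul_mul_comm, e, e', h.mm])
  rw [(h.cen v hv y).mul_mul_mul_comm] at h2
  exact (mul_mem_cancel_right (mul_mem hv hw)).1 h2

theorem idx_le {B : Subgroup G} (l : List G) (hl : ∀ t ∈ l, t ∈ B)
    (h : ∀ g ∈ B, ∃ t ∈ l, t * g ∈ Z) : Z.relIndex B ≤ l.length := by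
  let f : Fin l.length → B ⧸ Z.subgroupOf B := fun i =>
    QuotientGroup.mk (⟨l.get i, hl _ (List.get_mem l i)⟩ : B)⁻¹
  have hf : Function.Surjective f := by
    rintro ⟨g⟩
    obtain ⟨t, ht, e⟩ := h g g.2
    obtain ⟨i, rfl⟩ := List.get_of_mem ht
    exact ⟨i, QuotientGroup.eq.2 (by simpa [Subgroup.mem_subgroupOf] using e)⟩
  have := Nat.card_le_card_of_surjective f hf
  rw [Nat.card_eq_fintype_card (α := Fin _), Fintype.card_fin] at this
  exact this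

theorem ZD.four (h : ZD Z m) {B : Subgroup G} (hZ : Z ≤ B) (pw : ∀ x ∈ B, x * x ∈ Z)
    (cm : ∀ x ∈ B, ∀ y ∈ B, ⁅x, y⁆ ∈ Z) (an : ∀ x ∈ B, x * x = 1 → x ∈ Z) {x y : G} (hx : x ∈ B)
    (hy : y ∈ B) (hn : ¬ Commute x y) :
    Z.relIndex B ≤ 4 ∧ ∀ g ∈ B, g ∉ Z → ∃ t ∈ B, ¬ Commute g t := by
  have hx' : x ∉ Z := fun e => hn (h.cen x e y)
  have hy' : y ∉ Z := fun e => hn (h.cen y e x).symm
  have hxy : x * y ∉ Z := fun e => hn (by
    have := ((Commute.refl x).inv_left.mul_left (h.cen _ e x)).symm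
    have h2 : Commute x (x⁻¹ * (x * y)) := (Commute.refl x).inv_right.mul_right (h.cen _ e x).symm
    simpa using h2)
  constructor
  · refine idx_le [1, x, y, x * y] (by simp [hx, hy, mul_mem, one_mem]) fun g hg => ?_
    by_cases h0 : g ∈ Z
    · exact ⟨1, by simp, by simpa using h0⟩
    by_cases h1 : Commute x g
    · exact ⟨x, by simp, h.cm hZ pw an hx hx' hg h0 h1⟩
    by_cases h2 : Commute y g
    · exact ⟨y, by simp, h.cm hZ pw an hy hy' hg h0 h2⟩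
    refine ⟨x * y, by simp, h.cm hZ pw an (mul_mem hx hy) hxy hg h0 ?_⟩
    have e1 := h.anti (pw x hx) (cm x hx g hg) h1
    have e2 := h.anti (pw y hy) (cm y hy g hg) h2
    show x * y * g = g * (x * y)
    calc x * y * g = (x * m) * (g * y) := by rw [mul_assoc, e2]; group
      _ = m * (x * g) * y := by rw [← (h.cen m h.mZ x).eq]; group
      _ = (m * m) * (g * (x * y)) := by rw [e1]; group
      _ = _ := by rw [h.mm, one_mul]
  · intro g hg h0
    by_contra h1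
    push Not at h1
    have e1 := h.cm hZ pw an hx hx' hg h0 (h1 x hx).symm
    have e2 := h.cm hZ pw an hy hy' hg h0 (h1 y hy).symm
    have h3 : Commute (x * g * g⁻¹) y := (h.cen _ e1 y).mul_left (h1 y hy).inv_left
    exact hn (by simpa using h3)

theorem ZD.two [Finite G] (h : ZD Z m) {B : Subgroup G} (hZ : Z < B) (pw : ∀ x ∈ B, x * x ∈ Z)
    (an : ∀ x ∈ B, x * x = 1 → x ∈ Z) (ab : ∀ x ∈ B, ∀ y ∈ B, Commute x y) :
    Z.relIndex B = 2 := by
  obtain ⟨x, hx, hx'⟩ := SetLike.exists_of_lt hZ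
  have h1 : Z.relIndex B ≤ 2 := by
    refine idx_le [1, x] (by simp [hx, one_mem]) fun g hg => ?_
    by_cases h0 : g ∈ Z
    · exact ⟨1, by simp, by simpa using h0⟩
    · exact ⟨x, by simp, h.cm hZ.le pw an hx hx' hg h0 (ab x hx g hg)⟩
  have h2 : Z.relIndex B ≠ 0 := Subgroup.index_ne_zero_of_finite
  have h3 : Z.relIndex B ≠ 1 := fun e => hx' (Subgroup.relIndex_eq_one.1 e hx)
  omega

end Abs

variable {F : Type} [Field F] [Fintype F] [DecidableEq F] {n : ℕ}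

theorem zd {c : Cl F n} (ka : KA c) (hp : 2 ≠ c.p) (h2 : 2 ∣ c.zc) (h4 : ¬ 4 ∣ c.zc) :
    ∃ m : Gl n F, (m : Mt n F) = -1 ∧ ZD c.Z m := by
  have hn := c.hn
  have := c.chr
  obtain ⟨m, hm, em⟩ := ka.ex_Z (-1) ⟨by simp, fun hu => by
    rw [Cl.zc, if_pos hu] at h2
    exact (even_iff_two_dvd.2 h2).neg_one_pow⟩
  rw [neg_smul, one_smul] at em
  have i0 : Fin n := ⟨0, by omega⟩
  have mm : m * m = 1 := Units.ext (by simp [em])
  have m1 : m ≠ 1 := fun e => by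
    rw [e] at em
    have h1 := congrFun (congrFun em i0) i0
    simp only [Units.val_one, Matrix.neg_apply, Matrix.one_apply_eq] at h1
    have h3 : ((2 : ℕ) : F) = 0 := by push_cast; linear_combination h1
    exact hp ((Nat.prime_dvd_prime_iff_eq c.hp Nat.prime_two).1
      ((CharP.cast_eq_zero_iff F c.p 2).1 h3)).symm
  have sq1 : ∀ z ∈ c.Z, z * z = 1 → z = 1 ∨ z = m := fun z hz e => by
    obtain ⟨a, -, ea⟩ := (ka.mem_Z z).1 hz
    have h0 : (z : Mt n F) * (z : Mt n F) = 1 := congrArg Units.val e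
    rw [ea] at h0
    have h1 := congrFun (congrFun h0 i0) i0
    simp at h1
    rcases mul_self_eq_one_iff.1 h1 with rfl | rfl
    · exact .inl (Units.ext (by simp [ea]))
    · exact .inr (Units.ext (by simp [ea, em]))
  refine ⟨m, em, hm, mm, ka.zcomm, sq1, fun z hz => ?_, fun w hw e => h4 ?_⟩
  · obtain ⟨k, hk⟩ := h2
    obtain ⟨j, rfl⟩ : Odd k := by
      rcases Nat.even_or_odd k with ⟨j, rfl⟩ | h
      · exact absurd ⟨j, by omega⟩ h4
      · exact h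
    have h1 : z ^ (2 * (2 * j + 1)) = 1 := by
      rw [← hk, ← ka.card_Z]
      exact congrArg Subtype.val (pow_card_eq_one' (G := c.Z) (x := ⟨z, hz⟩))
    have h3 : z * (z ^ j * z ^ j) = z ^ (2 * j + 1) := by group
    refine ⟨z ^ j, pow_mem hz j, ?_⟩
    rw [h3]
    exact sq1 _ (pow_mem hz _) (by rw [← h1, ← pow_add]; congr 1; omega)
  · have : Fact (Nat.Prime 2) := ⟨Nat.prime_two⟩
    have h1 : orderOf w = 2 ^ (1 + 1) := orderOf_eq_prime_pow
      (by rw [pow_one, pow_two, e]; exact m1)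
      (by rw [show 2 ^ (1 + 1) = 2 * 2 from rfl, pow_mul, pow_two w, e, pow_two, mm])
    rw [← ka.card_Z]
    exact (show orderOf w = 4 from h1) ▸ c.Z.orderOf_dvd_natCard hw

theorem nd2 (hKA : KAStmt) (e1 : Ext1Stmt) (e2 : Ext2Stmt) (ndk : NdkStmt) (po : POneStmt)
    (pab : PAbStmt) (q88 : Q88Stmt) : Nd2Stmt := by
  intro F _ _ _ n c r H Q L hr A hA hab h2 h4
  subst h2
  have ka := hKA F n c
  have nd := (e1 F n c 2 H Q L A hA hab).1
  obtain ⟨-, hd, -, -, iA⟩ := e2 F n c 2 A Nat.prime_two nd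
  obtain ⟨m, em, zd⟩ := zd ka hr hd h4
  by_cases hQ : Q = A
  · exact .inr hQ
  left
  obtain ⟨P, hP⟩ := po F n c 2 H Q L A hA nd hQ
  have QS : ∀ x ∈ Q, x ∈ c.St := fun x hx => ((ka.mem_hat H x).1 (L.qh hx)).1
  have pA : ∀ x ∈ A, x * x ∈ c.Z := fun x hx => pow_two x ▸ nd.pw x hx
  have pP : ∀ x ∈ P, x * x ∈ c.Z := fun x hx => pow_two x ▸ ((hP.mem x).1 hx).2.1
  have cP : ∀ x ∈ P, ∀ y ∈ P, ⁅x, y⁆ ∈ c.Z := fun x hx y hy =>
    ((hP.mem y).1 hy).2.2.1 x ((hP.mem x).1 hx).1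
  obtain ⟨x0, hx0, y0, hy0, hn0⟩ : ∃ x ∈ A, ∃ y ∈ A, ¬ Commute x y := by
    by_contra h
    push Not at h
    exact hab h
  obtain ⟨z, hz, ez⟩ := zd.exm nd.zlt.le pA nd.cm hx0 hy0 hn0
  have hz' : z ∉ c.Z := fun h => zd.ns z h ez
  have good : ∀ x ∈ A, x ∉ c.Z → ∀ y ∈ Q, (∀ a ∈ A, Commute y a) → x * x * (y * y) = m →
      Good c 2 (x * y) := fun x hx hx' y hy hc e => by
    obtain ⟨t, ht, hn⟩ := nd.nd x hx hx'
    refine ⟨mul_mem (nd.le hx) (QS y hy), ?_, t, nd.le ht, ?_, fun h => hn ?_⟩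
    · rw [if_pos ⟨rfl, h4⟩, pow_two, (hc x hx).mul_mul_mul_comm, e, em]
    · have : ⁅t, x * y⁆ = ⁅t, x⁆ := by
        simp only [commutatorElement_def]
        calc t * (x * y) * t⁻¹ * (x * y)⁻¹ = t * x * (y * t⁻¹) * y⁻¹ * x⁻¹ := by group
          _ = _ := by rw [(hc t ht).inv_right.eq]; group
      rw [this]
      exact nd.cm t ht x hx
    · have := h.mul_right (hc t ht).symm.inv_right
      simpa using this.symm
  have gz : Good c 2 z := by
    simpa using good z hz hz' 1 (one_mem _) (fun a _ => Commute.one_left a) (by simpa using ez)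
  have key : ∀ x ∈ A, x ∉ c.Z → ∀ y ∈ P, y ∉ c.Z → x * x * (y * y) = m → False :=
    fun x hx hx' y hy hy' e => by
      obtain ⟨a1, a2, a3, a4⟩ := (hP.mem y).1 hy
      exact ndk F n c 2 H Q L hr A hA nd x hx hx' y a1 hy' a2 a3 a4
        (good x hx hx' y a1 a4 e) z hz gz
  have anP : ∀ y ∈ P, y * y = 1 → y ∈ c.Z := fun y hy e => by
    by_contra h
    exact key z hz hz' y hy h (by rw [e, ez, mul_one])
  have anA : ∀ x ∈ A, x * x = 1 → x ∈ c.Z := fun x hx e => by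
    by_contra h
    obtain ⟨y, hy, hy'⟩ := SetLike.exists_of_lt hP.zlt
    obtain ⟨w, hw, e'⟩ := zd.sc hP.zlt.le pP anP hy hy'
    exact key x hx h _ (mul_mem hy (hP.zlt.le hw)) (fun h' => zd.ns _ h' e')
      (by rw [e, e', one_mul])
  by_cases ab : ∀ x ∈ P, ∀ y ∈ P, Commute x y
  · exact pab F n c 2 H Q L hr A P hA hab hP (zd.two hP.zlt pP anP ab)
      fun y hy e => anP y hy (pow_two y ▸ e)
  push Not at ab
  obtain ⟨x, hx, y, hy, hn⟩ := ab
  obtain ⟨f1, f2⟩ := zd.four hP.zlt.le pP cP anP hx hy hn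
  have ndP : Ndg c 2 P := ⟨hP.zlt, fun x hx => QS x ((hP.mem x).1 hx).1, cP,
    fun x hx => ((hP.mem x).1 hx).2.1, f2⟩
  obtain ⟨-, -, -, -, iP⟩ := e2 F n c 2 P Nat.prime_two ndP
  have f3 := (zd.four nd.zlt.le pA nd.cm anA hx0 hy0 hn0).1
  exact q88 F n c 2 H Q L hr rfl A P hA nd hP ndP (by omega) (by omega)
    ⟨z, hz, by rw [pow_two, ez, em], hz'⟩

end Cfsg.Agent.H66.SwNd2
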