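import Cfsg.Agent.H58.SWDefs
import Cfsg.Agent.H42.Local

/-! Project SW, piece PAR3L: the linear parabolic case. -/

set_option autoImplicit false
set_option linter.unusedVariables false
set_option linter.unusedSectionVars false
open Matrix Cfsg
open scoped commutatorElement

namespace Cfsg.Agent.H66.SwPar3

open Cfsg.Agent.H58.SW

variable {F : Type} [Field F] [Fintype F] [DecidableEq F] {n : ℕ}

theorem exf (A : Submodule F (Vc n F)) {w : Vc n F} (hw : w ∉ A) :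
    ∃ f : Vc n F, (∀ a ∈ A, f ⬝ᵥ a = 0) ∧ f ⬝ᵥ w ≠ 0 := by
  obtain ⟨g, hg, hA⟩ := Submodule.exists_le_ker_of_notMem hw
  have e : ∀ x, (fun i => g (Pi.single i 1)) ⬝ᵥ x = g x := fun x => by
    conv_rhs => rw [pi_eq_sum_univ' x]
    simp [dotProduct, mul_comm]
  exact ⟨fun i => g (Pi.single i 1), fun a ha => by rw [e]; exact hA ha, by rw [e]; exact hg⟩

theorem tv {c : Cl F n} (ka : KA c) (kv : KV c) (hu : c.u = false) (v f : Vc n F)
    (h : f ⬝ᵥ v = 0) : ∃ g ∈ c.S, (g : Mt n F) = 1 + vecMulVec v f ∧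
      ∀ x, (g : Mt n F) *ᵥ x = x + (f ⬝ᵥ x) • v := by
  obtain ⟨g, e, hd, -⟩ := kv.nil (vecMulVec v f) ⟨2, by
    rw [pow_two, vecMulVec_mul_vecMulVec, h]; simp⟩
  refine ⟨g, (ka.mem_S g).2 ⟨(ka.mem_St g).2 (by simp [hu]), hd⟩, e, fun x => ?_⟩
  rw [e, add_mulVec, one_mulVec, vecMulVec_mulVec]
  simp

theorem mid {c : Cl F n} (ka : KA c) (kv : KV c) (hu : c.u = false)
    {Y Y' W A B : Submodule F (Vc n F)} (hs : ∀ s ∈ c.S, Stab s Y → Stab s Y' → Stab s W)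
    (h1 : Y ≤ A ∨ B ≤ Y) (h2 : Y' ≤ A ∨ B ≤ Y') (hA : A ≤ W) (hB : W ≤ B) : W = A ∨ W = B := by
  by_contra h
  push Not at h
  obtain ⟨w, hw, hw'⟩ := SetLike.exists_of_lt (lt_of_le_of_ne hA h.1.symm)
  obtain ⟨v, hv, hv'⟩ := SetLike.exists_of_lt (lt_of_le_of_ne hB h.2)
  have h3 : w ∉ A ⊔ Submodule.span F {v} := fun h3 => by
    obtain ⟨a, ha, b, hb, e⟩ := Submodule.mem_sup.1 h3
    obtain ⟨k, rfl⟩ := Submodule.mem_span_singleton.1 hb
    by_cases hk : k = 0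
    · rw [hk, zero_smul, add_zero] at e
      exact hw' (e ▸ ha)
    · exact hv' ((W.smul_mem_iff hk).1 ((W.add_mem_iff_right (hA ha)).1 (e ▸ hw)))
  obtain ⟨f, f1, f2⟩ := exf _ h3
  obtain ⟨g, hg, -, e⟩ := tv ka kv hu v f
    (f1 v (Submodule.mem_sup_right (Submodule.mem_span_singleton_self v)))
  have st : ∀ U : Submodule F (Vc n F), U ≤ A ∨ B ≤ U → Stab g U := fun U hU x hx => by
    rw [e]
    rcases hU with hU | hU
    · rw [f1 x (Submodule.mem_sup_left (hU hx)), zero_smul, add_zero]; exact hx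
    · exact U.add_mem hx (U.smul_mem _ (hU hv))
  have h4 := hs g hg (st Y h1) (st Y' h2) w hw
  rw [e] at h4
  exact hv' ((W.smul_mem_iff f2).1 ((W.add_mem_iff_right hw).1 h4))

theorem par3L (hKA : KAStmt) (hKV : KVStmt) : Par3LStmt := by
  intro F _ _ _ n c hu Y Y' W hle hs
  have ka := hKA F n c
  have kv := hKV F n c
  exact ⟨fun h => mid ka kv hu hs (.inr le_rfl) (.inr hle) bot_le h,
    fun h h' => mid ka kv hu hs (.inl le_rfl) (.inr le_rfl) h h',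
    fun h => mid ka kv hu hs (.inl hle) (.inl le_rfl) h le_top⟩

theorem fixq {p : ℕ} (hp : p.Prime) [CharP F p] (X : Subgroup (Gl n F)) (hX : IsPGroup p X)
    (A B : Submodule F (Vc n F)) (hA : ∀ x ∈ X, Stab x A) (hB : ∀ x ∈ X, Stab x B)
    (hne : ¬ B ≤ A) : ∃ v ∈ B, v ∉ A ∧ ∀ x ∈ X, (x : Mt n F) *ᵥ v - v ∈ A := by
  have := Fact.mk hp
  let f : X → (Vc n F ⧸ A) →ₗ[F] (Vc n F ⧸ A) := fun x =>
    A.mapQ A (Matrix.toLin' (x.1 : Mt n F)) (fun v hv => hA x x.2 v hv)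
  have hf : ∀ x v, f x (A.mkQ v) = A.mkQ ((x.1 : Mt n F) *ᵥ v) := fun _ _ => rfl
  let T := B.map A.mkQ
  letI : MulAction X T :=
    { smul := fun x q => ⟨f x q, by
        obtain ⟨_, v, hv, rfl⟩ := q
        exact ⟨_, hB x x.2 v hv, rfl⟩⟩
      one_smul := by
        rintro ⟨_, v, hv, rfl⟩
        refine Subtype.ext ?_
        show f 1 (A.mkQ v) = A.mkQ v
        rw [hf]; simp
      mul_smul := by
        rintro x y ⟨_, v, hv, rfl⟩
        refine Subtype.ext ?_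
        show f (x * y) (A.mkQ v) = f x (f y (A.mkQ v))
        rw [hf, hf, hf]; simp }
  have : Finite (Vc n F ⧸ A) := Finite.of_surjective _ A.mkQ_surjective
  obtain ⟨b, hb, hb'⟩ := SetLike.not_le_iff_exists.1 hne
  have hd : p ∣ Nat.card T := by
    have h1 : addOrderOf (⟨A.mkQ b, b, hb, rfl⟩ : T) = p := addOrderOf_eq_prime
      (by rw [← Nat.cast_smul_eq_nsmul F, CharP.cast_eq_zero, zero_smul])
      (fun e => hb' ((Submodule.Quotient.mk_eq_zero A).1 (congrArg Subtype.val e)))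
    exact h1 ▸ addOrderOf_dvd_natCard _
  obtain ⟨⟨_, v, hv, rfl⟩, hz, hne⟩ := hX.exists_fixed_point_of_prime_dvd_card_of_fixed_point T hd
    (a := 0) (fun g => Subtype.ext (map_zero (f g)))
  refine ⟨v, hv, fun e => hne (Subtype.ext ((Submodule.Quotient.mk_eq_zero A).2 e).symm),
    fun x hx => ?_⟩
  have h1 : f ⟨x, hx⟩ (A.mkQ v) = A.mkQ v := congrArg Subtype.val (hz ⟨x, hx⟩)
  rw [hf] at h1
  exact (Submodule.Quotient.eq A).1 h1

/-- the vectors of `B` fixed modulo `A` -/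
def fxW (X : Subgroup (Gl n F)) (A B : Submodule F (Vc n F)) : Submodule F (Vc n F) where
  carrier := {v | v ∈ B ∧ ∀ x ∈ X, (x : Mt n F) *ᵥ v - v ∈ A}
  add_mem' := by
    rintro a b ⟨a1, a2⟩ ⟨b1, b2⟩
    refine ⟨B.add_mem a1 b1, fun x hx => ?_⟩
    rw [mulVec_add, add_sub_add_comm]
    exact A.add_mem (a2 x hx) (b2 x hx)
  zero_mem' := ⟨B.zero_mem, fun x _ => by simp⟩
  smul_mem' := by
    rintro k a ⟨a1, a2⟩
    refine ⟨B.smul_mem k a1, fun x hx => ?_⟩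
    rw [mulVec_smul, ← smul_sub]
    exact A.smul_mem k (a2 x hx)

theorem fx_all {p : ℕ} (hp : p.Prime) [CharP F p] {N X : Subgroup (Gl n F)} (hX : IsPGroup p X)
    (hXN : X ≤ N) (hn : ∀ a ∈ N, ∀ x ∈ X, a * x * a⁻¹ ∈ X) {A B : Submodule F (Vc n F)}
    (hle : A ≤ B) (hA : ∀ x ∈ N, Stab x A) (hB : ∀ x ∈ N, Stab x B)
    (h : ∀ W : Submodule F (Vc n F), (∀ a ∈ N, Stab a W) → A ≤ W → W ≤ B → W = A ∨ W = B) :
    ∀ v ∈ B, ∀ x ∈ X, (x : Mt n F) *ᵥ v - v ∈ A := by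
  have h0 : A ≤ fxW X A B := fun v hv =>
    ⟨hle hv, fun x hx => A.sub_mem (hA x (hXN hx) v hv) hv⟩
  by_cases hne : B ≤ A
  · exact fun v hv => (h0 (hne hv)).2
  rcases h (fxW X A B) (fun a ha v hv => ⟨hB a ha v hv.1, fun x hx => by
    have h1 := hA a ha _ (hv.2 _ (hn a⁻¹ (inv_mem ha) x hx))
    rw [mulVec_sub, mulVec_mulVec, ← Units.val_mul, inv_inv, ← mul_assoc, ← mul_assoc,
      mul_inv_cancel, one_mul, Units.val_mul, ← mulVec_mulVec] at h1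
    exact h1⟩) h0 (fun v hv => hv.1) with e | e
  · obtain ⟨v, hv, hv', h1⟩ := fixq hp X hX A B (fun x hx => hA x (hXN hx))
      (fun x hx => hB x (hXN hx)) hne
    exact absurd (e ▸ (⟨hv, h1⟩ : v ∈ fxW X A B)) hv'
  · intro v hv
    rw [← e] at hv
    exact hv.2

theorem triL (hKA : KAStmt) (hKT : KTStmt) (hKV : KVStmt) (pun : PunStmt) : TriLStmt := by
  intro F _ _ _ n c r H Q L hr hu Y Y' fl x hx hx'
  have ka := hKA F n c
  have kv := hKV F n c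
  have := c.chr
  by_cases hq : Q ≤ c.Z
  · rw [kv.uz x (hq hx) hx']
    exact ⟨by simp, by simp, by simp⟩
  obtain ⟨X0, i0, s0, n0, p0, m0⟩ := pun F n c r H Q L hr Q (lt_of_le_not_ge L.zq hq) le_rfl L.inv
  have hx0 := (m0 x).2 ⟨hx, hx'⟩
  have hN : X0 ≤ c.hat H := fun y hy => L.qh ((m0 y).1 hy).1
  have hn := (hKT F n c).hatG H X0 i0
  have p3 := fun W (hW : ∀ a ∈ c.hat H, Stab a W) => par3L hKA hKV F n c hu Y Y' W fl.le
    (fun s hs h1 h2 => hW s (fl.mem s hs h1 h2))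
  refine ⟨fun v hv => ?_, fun v hv => ?_, fun v => ?_⟩
  · have := fx_all c.hp p0 hN hn (A := ⊥) (B := Y) bot_le (fun a _ v hv => by
      rw [(Submodule.mem_bot F).1 hv]; simp) (fun a ha => (fl.st a ha).1)
      (fun W hW _ h => (p3 W hW).1 h) v hv x hx0
    exact sub_eq_zero.1 ((Submodule.mem_bot F).1 this)
  · exact fx_all c.hp p0 hN hn fl.le (fun a ha => (fl.st a ha).1) (fun a ha => (fl.st a ha).2)
      (fun W hW h h' => (p3 W hW).2.1 h h') v hv x hx0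
  · exact fx_all c.hp p0 hN hn (B := ⊤) le_top (fun a ha => (fl.st a ha).2)
      (fun _ _ _ _ => trivial) (fun W hW h _ => (p3 W hW).2.2 h) v trivial x hx0

/-- the elements that are trivial on the factors of the flag -/
def triG (S : Subgroup (Gl n F)) (Y Y' : Submodule F (Vc n F)) (hle : Y ≤ Y') :
    Subgroup (Gl n F) where
  carrier := {g | g ∈ S ∧ Tri g Y Y'}
  one_mem' := ⟨one_mem _, by simp, by simp, by simp⟩
  mul_mem' := by
    rintro g h ⟨g0, g1, g2, g3⟩ ⟨h0, h1, h2, h3⟩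
    have e : ∀ v, ((g * h : Gl n F) : Mt n F) *ᵥ v - v =
        ((g : Mt n F) *ᵥ ((h : Mt n F) *ᵥ v - v) - ((h : Mt n F) *ᵥ v - v)) +
          ((h : Mt n F) *ᵥ v - v) + ((g : Mt n F) *ᵥ v - v) := fun v => by
      rw [Units.val_mul, ← mulVec_mulVec, mulVec_sub]; abel
    refine ⟨mul_mem g0 h0, fun v hv => ?_, fun v hv => ?_, fun v => ?_⟩
    · rw [Units.val_mul, ← mulVec_mulVec, h1 v hv, g1 v hv]
    · rw [e]
      exact Y.add_mem (Y.add_mem (g2 _ (hle (h2 v hv))) (h2 v hv)) (g2 v hv)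
    · rw [e]
      exact Y'.add_mem (Y'.add_mem (g3 _) (h3 v)) (g3 v)
  inv_mem' := by
    rintro g ⟨g0, g1, g2, g3⟩
    have e : ∀ v, ((g⁻¹ : Gl n F) : Mt n F) *ᵥ ((g : Mt n F) *ᵥ v) = v := fun v => by
      rw [mulVec_mulVec, ← Units.val_mul, inv_mul_cancel, Units.val_one, one_mulVec]
    have e' : ∀ v, ((g⁻¹ : Gl n F) : Mt n F) *ᵥ v - v =
        -(((g⁻¹ : Gl n F) : Mt n F) *ᵥ ((g : Mt n F) *ᵥ v - v)) := fun v => by
      rw [mulVec_sub, e]; abel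
    have i1 : ∀ v ∈ Y, ((g⁻¹ : Gl n F) : Mt n F) *ᵥ v = v := fun v hv => by
      conv_lhs => rw [← g1 v hv]
      exact e v
    have i2 : ∀ v ∈ Y', ((g⁻¹ : Gl n F) : Mt n F) *ᵥ v - v ∈ Y := fun v hv => by
      rw [e', i1 _ (g2 v hv)]
      exact Y.neg_mem (g2 v hv)
    refine ⟨inv_mem g0, i1, i2, fun v => ?_⟩
    rw [e']
    exact Y'.neg_mem ((Y'.sub_mem_iff_left (g3 v)).1 (hle (i2 _ (g3 v))))

theorem tri_unip {g : Gl n F} {Y Y' : Submodule F (Vc n F)} (h : Tri g Y Y') : Unip g := by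
  refine ⟨3, ?_⟩
  have e : ∀ v, ((g : Mt n F) - 1) *ᵥ v = (g : Mt n F) *ᵥ v - v := fun v => by
    rw [sub_mulVec, one_mulVec]
  refine Matrix.toLin'.injective (LinearMap.ext fun v => ?_)
  rw [Matrix.toLin'_apply, Matrix.toLin'_apply, zero_mulVec, pow_succ, pow_two, ← mulVec_mulVec,
    ← mulVec_mulVec, e v, e, e, h.1 _ (h.2.1 _ (h.2.2 v)), sub_self]

theorem par2L (hKA : KAStmt) (hKT : KTStmt) (hKV : KVStmt) (pun : PunStmt) : Par2LStmt := by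
  intro F _ _ _ n c r H Q L hr hu Y Y' X fl hZ hXQ hX
  have ka := hKA F n c
  have kv := hKV F n c
  have := Fact.mk c.hp
  obtain ⟨X0, i0, s0, n0, p0, m0⟩ := pun F n c r H Q L hr X hZ hXQ hX
  have hO : triG c.S Y Y' fl.le ≤ c.hat H := fun g ⟨g0, g1, g2, _⟩ =>
    fl.mem g g0 (fun v hv => by rw [g1 v hv]; exact hv)
      (fun v hv => (Y'.sub_mem_iff_left hv).1 (fl.le (g2 v hv)))
  have hP : IsPGroup c.p (triG c.S Y Y' fl.le) := fun g => by
    obtain ⟨k, hk⟩ := (kv.upow g).1 (tri_unip g.2.2)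
    exact ⟨k, Subtype.ext hk⟩
  have hle : X0 ≤ triG c.S Y Y' fl.le := fun x hx => ⟨s0 hx, triL hKA hKT hKV pun F n c r H Q L hr hu
    Y Y' fl x (hXQ ((m0 x).1 hx).1) ((m0 x).1 hx).2⟩
  obtain ⟨z, hz, hz1, hc⟩ := H42.exists_central_mem hP hle n0
    (fun x hx s hs => (hKT F n c).hatG H X0 i0 s (hO hs) x hx)
  obtain ⟨-, t1, t2, t3⟩ := hle hz
  have key : ∀ v f : Vc n F, v ∈ Y' → f ⬝ᵥ v = 0 → (∀ y ∈ Y, f ⬝ᵥ y = 0) →
      (v ∈ Y ∨ ∀ y ∈ Y', f ⬝ᵥ y = 0) → ∀ x, (f ⬝ᵥ ((z : Mt n F) *ᵥ x)) • v =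
        (f ⬝ᵥ x) • ((z : Mt n F) *ᵥ v) := fun v f hv h0 h1 h2 x => by
    obtain ⟨g, hg, -, e⟩ := tv ka kv hu v f h0
    have h3 := hc g ⟨hg, fun y hy => by rw [e, h1 y hy, zero_smul, add_zero], fun y hy => by
      rw [e, add_sub_cancel_left]
      rcases h2 with h2 | h2
      · exact Y.smul_mem _ h2
      · rw [h2 y hy, zero_smul]; exact Y.zero_mem, fun y => by
      rw [e, add_sub_cancel_left]; exact Y'.smul_mem _ hv⟩
    have h4 := congrArg (fun a : Gl n F => (a : Mt n F) *ᵥ x) h3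
    simp only [Units.val_mul, ← mulVec_mulVec, e, mulVec_add, mulVec_smul] at h4
    exact add_left_cancel h4
  refine ⟨z, ((m0 z).1 hz).1, hz1, ((m0 z).1 hz).2, fun v hv => ?_, fun x => ?_⟩
  · obtain ⟨x, -, hx⟩ := SetLike.exists_of_lt (lt_top_iff_ne_top.2 fl.nt)
    obtain ⟨f, f1, f2⟩ := exf Y' hx
    have h1 := key v f hv (f1 v hv) (fun y hy => f1 y (fl.le hy)) (.inr f1) x
    have h2 := f1 _ (t3 x)
    rw [dotProduct_sub, sub_eq_zero] at h2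
    rw [h2] at h1
    exact (smul_right_injective _ f2 h1).symm
  · by_contra hx
    obtain ⟨f, f1, f2⟩ := exf Y hx
    obtain ⟨v, hv, hv0⟩ := (Submodule.ne_bot_iff Y).1 fl.nb
    have h1 := key v f (fl.le hv) (f1 v hv) f1 (.inl hv) x
    rw [t1 v hv] at h1
    rw [dotProduct_sub, sub_ne_zero] at f2
    exact f2 (smul_left_injective F hv0 h1)

end Cfsg.Agent.H66.SwPar3
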